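import Cfsg.Agent.LocEven.Chermak.Count

/-!
Existence of a proper submodule invariant under `K` and `B`, and the resulting bound.
-/

set_option autoImplicit false

namespace Cfsg.Agent.LocEven.Chermak

open Cfsg

variable {W : Type*} [AddCommGroup W] {K B : Type*} [Group K] [CommGroup B]
variable {σ : K →* AddMonoid.End W} {β : B →* AddMonoid.End W}

/-- If the commutant has a quasisimple image, `K` is not irreducible. -/
theorem not_irreducible_of_commuting [Finite W] [Nontrivial W] (hK : IsQuasisimple K)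
    (hirr : ∀ U : AddSubgroup W, (∀ k, ∀ u ∈ U, σ k u ∈ U) → U = ⊥ ∨ U = ⊤)
    (τ : K →* AddMonoid.End W) (hc : ∀ k l, Commute (σ k) (τ l)) (k : K) : τ k = 1 := by
  set S : Subring (AddMonoid.End W) := Subring.centralizer (Set.range σ) with hS
  haveI hfinEnd : Finite (AddMonoid.End W) :=
    Finite.of_injective (fun f : AddMonoid.End W => (f : W → W)) DFunLike.coe_injective
  haveI : Nontrivial (AddMonoid.End W) := by
    obtain ⟨w, hw⟩ := exists_ne (0 : W)
    exact ⟨⟨1, 0, fun h => hw (DFunLike.congr_fun h w)⟩⟩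
  have hinj : ∀ f ∈ S, f ≠ 0 → Function.Injective f := by
    intro f hf hf0
    rw [Subring.mem_centralizer_iff] at hf
    rcases hirr (AddMonoidHom.ker (f : W →+ W)) (fun k u hu => by
      show f (σ k u) = 0
      rw [← endo_mul_apply, ← hf (σ k) ⟨k, rfl⟩, endo_mul_apply,
        show f u = 0 from hu, map_zero]) with h | h
    · exact (AddMonoidHom.ker_eq_bot_iff (f : W →+ W)).mp h
    · refine absurd (AddMonoidHom.ext fun w => ?_) hf0
      exact (h.ge (AddSubgroup.mem_top w) : w ∈ AddMonoidHom.ker (f : W →+ W))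
  haveI : NoZeroDivisors S := ⟨fun {a b} hab => by
    by_contra hcon
    push Not at hcon
    refine hcon.2 (Subtype.ext (AddMonoidHom.ext fun w => hinj a.1 a.2 ?_ ?_))
    · exact fun h => hcon.1 (Subtype.ext h)
    · have h := DFunLike.congr_fun (congrArg Subtype.val hab) w
      show (a : AddMonoid.End W) ((b : AddMonoid.End W) w) = (a : AddMonoid.End W) 0
      rw [map_zero]; exact h⟩
  haveI : Nontrivial S := ⟨⟨1, 0, fun h => one_ne_zero (congrArg Subtype.val h)⟩⟩
  haveI : IsDomain S := NoZeroDivisors.to_isDomain S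
  have hfield := Finite.isDomain_to_isField S
  have hmem : ∀ l, τ l ∈ S := fun l => Subring.mem_centralizer_iff.mpr (by
    rintro _ ⟨k, rfl⟩; exact (hc k l).eq)
  exact hom_trivial_of_comm hK τ (fun a b =>
    congrArg Subtype.val (hfield.mul_comm ⟨τ a, hmem a⟩ ⟨τ b, hmem b⟩)) k

/-- Minimal nonzero invariant subgroup. -/
def IsMinimalInv (σ : K →* AddMonoid.End W) (R : AddSubgroup W) : Prop :=
  R ≠ ⊥ ∧ (∀ k, ∀ u ∈ R, σ k u ∈ R) ∧
    ∀ U ≤ R, (∀ k, ∀ u ∈ U, σ k u ∈ U) → U = ⊥ ∨ U = R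

/-- The image of a subgroup under an endomorphism. -/
def img (f : AddMonoid.End W) (U : AddSubgroup W) : AddSubgroup W :=
  U.map (AddMonoidHom.mk' f (map_add f))

theorem mem_img {f : AddMonoid.End W} {U : AddSubgroup W} {w : W} :
    w ∈ img f U ↔ ∃ u ∈ U, f u = w :=
  AddSubgroup.mem_map

theorem img_img (f g : AddMonoid.End W) (U : AddSubgroup W) : img f (img g U) = img (f * g) U :=
  U.map_map _ _

theorem img_one (U : AddSubgroup W) : img 1 U = U := U.map_id

theorem img_bot (f : AddMonoid.End W) : img f ⊥ = ⊥ := AddSubgroup.map_bot _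

theorem img_mono (f : AddMonoid.End W) {U T : AddSubgroup W} (h : U ≤ T) : img f U ≤ img f T :=
  AddSubgroup.map_mono h

theorem img_sup (f : AddMonoid.End W) (U T : AddSubgroup W) : img f (U ⊔ T) = img f U ⊔ img f T :=
  AddSubgroup.map_sup U T _

section involutions

variable (hB : ∀ b : B, b * b = 1)
include hB

theorem beta_beta (b : B) (w : W) : β b (β b w) = w := by
  rw [← endo_mul_apply, ← map_mul, hB, map_one]; rfl

theorem img_img_self (b : B) (U : AddSubgroup W) : img (β b) (img (β b) U) = U := by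
  rw [img_img, ← map_mul, hB, map_one, img_one]

theorem card_img (b : B) (U : AddSubgroup W) : Nat.card (img (β b) U) = Nat.card U :=
  AddSubgroup.card_map_of_injective (Function.LeftInverse.injective (beta_beta hB b))

theorem tw_back {b : B} {k l : K} (hl : tw σ β b k = σ l) : tw σ β b l = σ k := by
  rw [tw_apply b l, ← hl, ← tw_mul, hB, tw_one]

theorem img_inv (hN : ∀ b, Norm σ β b) (b : B) {U : AddSubgroup W}
    (hU : ∀ k, ∀ u ∈ U, σ k u ∈ U) : ∀ k, ∀ u ∈ img (β b) U, σ k u ∈ img (β b) U := by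
  intro k v hv
  obtain ⟨u, hu, rfl⟩ := mem_img.mp hv
  obtain ⟨l, hl⟩ := hN b k
  refine mem_img.mpr ⟨σ l u, hU l u hu, ?_⟩
  rw [alpha_tw_apply, tw_back hB hl]

end involutions

/-- Equivariant isomorphism of subgroups. -/
def IsEquivariant (σ : K →* AddMonoid.End W) {R S : AddSubgroup W} (e : R ≃+ S) : Prop :=
  ∀ k (r r' : R), (r' : W) = σ k r → (e r' : W) = σ k (e r)

/-- The subgroups isomorphic to `R` as modules. -/
def isoSet (σ : K →* AddMonoid.End W) (R : AddSubgroup W) : Set (AddSubgroup W) :=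
  {S | ∃ e : R ≃+ S, IsEquivariant σ e}

theorem IsEquivariant.trans {R S T : AddSubgroup W} {e : R ≃+ S} {f : S ≃+ T}
    (he : IsEquivariant σ e) (hf : IsEquivariant σ f) : IsEquivariant σ (e.trans f) :=
  fun k r r' h => hf k (e r) (e r') (he k r r' h)

theorem IsEquivariant.symm {R S : AddSubgroup W} (hR : ∀ k, ∀ u ∈ R, σ k u ∈ R) {e : R ≃+ S}
    (he : IsEquivariant σ e) : IsEquivariant σ e.symm := by
  intro k s s' h
  have h1 := he k (e.symm s) ⟨_, hR k _ (e.symm s).2⟩ rfl
  rw [e.apply_symm_apply] at h1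
  have h2 : e ⟨_, hR k _ (e.symm s).2⟩ = s' := Subtype.ext (h1.trans h.symm)
  rw [← h2, e.symm_apply_apply]

theorem self_mem_isoSet {R : AddSubgroup W} : R ∈ isoSet σ R :=
  ⟨AddEquiv.refl R, fun _ _ _ h => h⟩

theorem isoSet_props [Finite W] {R S : AddSubgroup W} (hR : IsMinimalInv σ R)
    (hS : S ∈ isoSet σ R) :
    Nat.card S = Nat.card R ∧ IsMinimalInv σ S := by
  obtain ⟨e, he⟩ := hS
  have hinv : ∀ k, ∀ u ∈ S, σ k u ∈ S := fun k u hu => by
    have h1 := he k (e.symm ⟨u, hu⟩) ⟨_, hR.2.1 k _ (e.symm ⟨u, hu⟩).2⟩ rfl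
    rw [e.apply_symm_apply] at h1
    rw [← h1]; exact Subtype.prop _
  have hcard : Nat.card S = Nat.card R := (Nat.card_congr e.toEquiv).symm
  refine ⟨hcard, fun h => ?_, hinv, fun U hle hU => ?_⟩
  · subst h
    rw [AddSubgroup.card_bot] at hcard
    exact hR.1 (AddSubgroup.eq_bot_of_card_eq _ hcard.symm)
  · have hes := he.symm hR.2.1
    let U' : AddSubgroup W := ((U.addSubgroupOf S).map e.symm.toAddMonoidHom).map R.subtype
    rcases hR.2.2 U' (AddSubgroup.map_subtype_le _) (by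
      rintro k _ ⟨_, ⟨u, hu, rfl⟩, rfl⟩
      refine ⟨e.symm ⟨σ k u, hinv k u u.2⟩, ⟨_, ?_, rfl⟩, hes k u _ rfl⟩
      exact hU k _ hu) with h | h
    · left
      rw [AddSubgroup.eq_bot_iff_forall]
      intro u hu
      have h1 : ((e.symm ⟨u, hle hu⟩ : R) : W) ∈ U' := ⟨_, ⟨⟨u, hle hu⟩, hu, rfl⟩, rfl⟩
      rw [h, AddSubgroup.mem_bot] at h1
      have h2 := congrArg e (show e.symm ⟨u, hle hu⟩ = 0 from Subtype.ext h1)
      rw [e.apply_symm_apply, map_zero] at h2
      exact congrArg Subtype.val h2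
    · right
      refine le_antisymm hle fun v hv => ?_
      have h1 : ((e.symm ⟨v, hv⟩ : R) : W) ∈ U' := by rw [h]; exact Subtype.prop _
      obtain ⟨_, ⟨u, hu, rfl⟩, he'⟩ := h1
      have h2 : u = ⟨v, hv⟩ := e.symm.injective (Subtype.ext he')
      rw [h2] at hu
      exact hu

theorem isoSet_symm {R S : AddSubgroup W} (hR : ∀ k, ∀ u ∈ R, σ k u ∈ R) (hS : S ∈ isoSet σ R) :
    R ∈ isoSet σ S := by
  obtain ⟨e, he⟩ := hS
  exact ⟨e.symm, he.symm hR⟩

theorem isoSet_trans {R S T : AddSubgroup W} (hS : S ∈ isoSet σ R) (hT : T ∈ isoSet σ S) :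
    T ∈ isoSet σ R := by
  obtain ⟨e, he⟩ := hS
  obtain ⟨f, hf⟩ := hT
  exact ⟨e.trans f, he.trans hf⟩

/-- Transport by an element normalizing `K`. -/
theorem isoSet_img (hB : ∀ b : B, b * b = 1) (hN : ∀ b, Norm σ β b) {R S : AddSubgroup W}
    (hR : ∀ k, ∀ u ∈ R, σ k u ∈ R) (b : B) (hS : S ∈ isoSet σ R) :
    img (β b) S ∈ isoSet σ (img (β b) R) := by
  obtain ⟨e, he⟩ := hS
  have hinj := Function.LeftInverse.injective (beta_beta (β := β) hB b)
  let cR : R ≃+ img (β b) R := R.equivMapOfInjective (AddMonoidHom.mk' (β b) (map_add _)) hinj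
  let cS : S ≃+ img (β b) S := S.equivMapOfInjective (AddMonoidHom.mk' (β b) (map_add _)) hinj
  have hcR : ∀ r, ((cR r : img (β b) R) : W) = β b r := fun r => rfl
  have hcS : ∀ r, ((cS r : img (β b) S) : W) = β b r := fun r => rfl
  refine ⟨(cR.symm.trans e).trans cS, fun k x x' h => ?_⟩
  obtain ⟨r, rfl⟩ := cR.surjective x
  obtain ⟨r', rfl⟩ := cR.surjective x'
  simp only [AddEquiv.trans_apply, AddEquiv.symm_apply_apply, hcS]
  rw [hcR, hcR] at h
  obtain ⟨l, hl⟩ := hN b k
  have h1 : (r' : W) = σ l r := by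
    have h2 := congrArg (β b) h
    rwa [beta_beta hB, alpha_tw_apply, hl, beta_beta hB] at h2
  rw [he l r r' h1, alpha_tw_apply, tw_back hB hl]

/-- The number of copies is odd. -/
theorem odd_isoSet [Finite W] (hW : ∀ w : W, 2 • w = 0) {R : AddSubgroup W}
    (hR : IsMinimalInv σ R) : Odd (isoSet σ R).ncard := by
  classical
  haveI : Finite (R →+ W) :=
    Finite.of_injective (fun f : R →+ W => (f : R → W)) DFunLike.coe_injective
  haveI : Fact (Nat.Prime 2) := ⟨Nat.prime_two⟩
  let H : AddSubgroup (R →+ W) :=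
    { carrier := {f | ∀ k (r r' : R), (r' : W) = σ k r → f r' = σ k (f r)}
      add_mem' := fun {f g} hf hg k r r' h => by
        show f r' + g r' = σ k (f r + g r)
        rw [map_add, hf k r r' h, hg k r r' h]
      zero_mem' := fun k r r' _ => (map_zero (σ k)).symm
      neg_mem' := fun {f} hf k r r' h => by
        show -f r' = σ k (-f r)
        rw [map_neg, hf k r r' h] }
  have hinj : ∀ f ∈ H, f ≠ 0 → Function.Injective f := by
    intro f hf hf0
    rw [← AddMonoidHom.ker_eq_bot_iff]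
    rcases hR.2.2 (f.ker.map R.subtype) (AddSubgroup.map_subtype_le _) (by
      rintro k _ ⟨r, hr, rfl⟩
      refine ⟨⟨σ k r, hR.2.1 k r r.2⟩, ?_, rfl⟩
      show f _ = 0
      rw [hf k r _ rfl, show f r = 0 from hr, map_zero]) with h | h
    · exact (AddSubgroup.map_eq_bot_iff_of_injective _ R.subtype_injective).mp h
    · refine absurd (AddMonoidHom.ext fun r => ?_) hf0
      have hr : (r : W) ∈ f.ker.map R.subtype := by rw [h]; exact r.2
      obtain ⟨r', hr', hrr⟩ := hr
      exact (Subtype.ext hrr : r' = r) ▸ hr'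
  have hne0 : R.subtype ≠ 0 := fun h => hR.1 (by
    rw [← AddSubgroup.range_subtype R, h]; exact AddMonoidHom.range_zero)
  have hsub : R.subtype ∈ H := fun _ _ _ h => h
  -- the nonzero elements
  have hp : IsPGroup 2 (Multiplicative H) := fun g => ⟨1, by
    refine Multiplicative.toAdd.injective ?_
    rw [pow_one, toAdd_pow, toAdd_one]
    exact Subtype.ext (AddMonoidHom.ext fun r => hW _)⟩
  obtain ⟨n, hn⟩ := IsPGroup.iff_card.mp hp
  have hn' : Nat.card H = 2 ^ n := hn
  let N : Type _ := {f : H // f ≠ 0}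
  have hNodd : Odd (Nat.card N) := by
    haveI := Fintype.ofFinite H
    rw [Nat.card_eq_fintype_card] at hn'
    rw [Nat.card_eq_fintype_card]
    have h2 : Fintype.card N = 2 ^ n - 1 := by
      simp only [N, Fintype.card_subtype_compl, Fintype.card_subtype_eq, hn']
    have hn1 : n ≠ 0 := by
      intro h
      rw [h, pow_zero] at hn'
      have hsing := Fintype.card_le_one_iff.mp hn'.le
      exact hne0 (congrArg Subtype.val (hsing ⟨R.subtype, hsub⟩ 0))
    rw [h2]
    exact Nat.Even.sub_odd Nat.one_le_two_pow ((Nat.even_pow' hn1).mpr even_two) odd_one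
  -- nonzero homs are the same as equivariant isomorphisms onto the copies
  let E : AddSubgroup W → Type _ := fun S => {e : R ≃+ S // IsEquivariant σ e}
  haveI : ∀ S, Finite (E S) := fun S => Finite.of_injective
    (fun e : E S => (fun r => (e.1 r : W))) (fun e e' h => Subtype.ext (AddEquiv.ext fun r =>
      Subtype.ext (congrFun h r)))
  let G : (Σ S : isoSet σ R, E S) → N := fun p => ⟨⟨(p.1.1).subtype.comp p.2.1.toAddMonoidHom,
    fun k r r' h => p.2.2 k r r' h⟩, fun h => hne0 (AddMonoidHom.ext fun r => by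
      have h1 : ((p.2.1 r : p.1.1) : W) = 0 := DFunLike.congr_fun (congrArg Subtype.val h) r
      rw [show r = 0 from p.2.1.injective ((Subtype.ext h1).trans (map_zero p.2.1).symm)]
      exact map_zero _)⟩
  have hGrange : ∀ p : (Σ S : isoSet σ R, E S), ((G p).1 : R →+ W).range = p.1.1 := fun p => by
    ext w
    exact ⟨by rintro ⟨r, rfl⟩; exact (p.2.1 r).2,
      fun hw => ⟨p.2.1.symm ⟨w, hw⟩, congrArg Subtype.val (p.2.1.apply_symm_apply _)⟩⟩
  have hcountE : Nat.card N = Nat.card (Σ S : isoSet σ R, E S) := by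
    refine (Nat.card_eq_of_bijective G ⟨fun p q h => ?_, fun f => ?_⟩).symm
    · have hST := (hGrange p).symm.trans (h ▸ hGrange q)
      obtain ⟨⟨S, hS⟩, e⟩ := p
      obtain ⟨⟨T, hT⟩, e'⟩ := q
      dsimp only at hST
      subst hST
      refine Sigma.ext rfl (heq_of_eq (Subtype.ext (AddEquiv.ext fun r => Subtype.ext ?_)))
      exact DFunLike.congr_fun (congrArg (fun z : N => (z.1 : R →+ W)) h) r
    · have hf := hinj _ f.1.2 (fun h => f.2 (Subtype.ext h))
      let e : R ≃+ (f.1 : R →+ W).range := AddMonoidHom.ofInjective hf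
      exact ⟨⟨⟨_, e, fun k r r' h => f.1.2 k r r' h⟩, e, fun k r r' h => f.1.2 k r r' h⟩, rfl⟩
  have hfib : ∀ S : isoSet σ R, Nat.card (E S) = Nat.card (E R) := by
    rintro ⟨S, e, he⟩
    refine Nat.card_congr
      { toFun := fun f => ⟨f.1.trans e.symm, f.2.trans (he.symm hR.2.1)⟩
        invFun := fun g => ⟨g.1.trans e, g.2.trans he⟩
        left_inv := fun f => Subtype.ext (AddEquiv.ext fun r => e.apply_symm_apply _)
        right_inv := fun g => Subtype.ext (AddEquiv.ext fun r => e.symm_apply_apply _) }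
  haveI := Fintype.ofFinite (isoSet σ R)
  rw [hcountE, Nat.card_sigma, Finset.sum_congr rfl (fun S _ => hfib S), Finset.sum_const,
    smul_eq_mul, Finset.card_univ, ← Nat.card_eq_fintype_card, Nat.card_coe_set_eq] at hNodd
  exact Nat.Odd.of_mul_left hNodd

/-- A simple invariant subgroup not isomorphic to `R` lies in any complement of `R`. -/
theorem le_of_not_iso [Finite W] {R M S : AddSubgroup W} (hR : IsMinimalInv σ R)
    (hS : IsMinimalInv σ S) (hM : ∀ k, ∀ u ∈ M, σ k u ∈ M) (hdisj : R ⊓ M = ⊥) (hle : S ≤ R ⊔ M)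
    (hne : S ∉ isoSet σ R) : S ≤ M := by
  rcases hS.2.2 (S ⊓ M) inf_le_left (fun k u hu => ⟨hS.2.1 k u hu.1, hM k u hu.2⟩) with h | h
  swap
  · exact inf_eq_left.mp h
  exfalso
  have hex : ∀ s : S, ∃ r : R, (s : W) - r ∈ M := fun s => by
    obtain ⟨r, hr, m, hm, e⟩ := AddSubgroup.mem_sup.mp (hle s.2)
    exact ⟨⟨r, hr⟩, by rw [← e, add_sub_cancel_left]; exact hm⟩
  choose π hπ using hex
  have huniq : ∀ (s : S) (r : R), (s : W) - r ∈ M → π s = r := fun s r hsr => by
    have h1 : (π s : W) - r ∈ R ⊓ M := ⟨R.sub_mem (π s).2 r.2, by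
      have := M.sub_mem hsr (hπ s)
      rwa [sub_sub_sub_cancel_left] at this⟩
    rw [hdisj, AddSubgroup.mem_bot, sub_eq_zero] at h1
    exact Subtype.ext h1
  let πh : S →+ R := AddMonoidHom.mk' π fun s t => huniq _ _ (by
    have := M.add_mem (hπ s) (hπ t)
    rw [AddSubgroup.coe_add, AddSubgroup.coe_add]
    rwa [add_sub_add_comm])
  have hπk : ∀ k (s : S), (π ⟨σ k s, hS.2.1 k s s.2⟩ : W) = σ k (π s) := fun k s => by
    refine congrArg Subtype.val (huniq _ ⟨σ k (π s), hR.2.1 k _ (π s).2⟩ ?_)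
    show σ k (s : W) - σ k (π s : W) ∈ M
    rw [← map_sub]; exact hM k _ (hπ s)
  have hinj : Function.Injective πh := by
    intro s t hst
    have h1 : (s : W) - t ∈ S ⊓ M := ⟨S.sub_mem s.2 t.2, by
      have := M.sub_mem (hπ s) (hπ t)
      rwa [show π s = π t from hst, sub_sub_sub_cancel_right] at this⟩
    rw [h, AddSubgroup.mem_bot, sub_eq_zero] at h1
    exact Subtype.ext h1
  have hsurj : Function.Surjective πh := by
    intro r
    rcases hR.2.2 (πh.range.map R.subtype) (AddSubgroup.map_subtype_le _) (by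
      rintro k _ ⟨_, ⟨s, rfl⟩, rfl⟩
      exact ⟨π ⟨σ k s, hS.2.1 k s s.2⟩, ⟨_, rfl⟩, hπk k s⟩) with h1 | h1
    · exfalso
      refine hS.1 ((AddSubgroup.eq_bot_iff_forall _).mpr fun s hs => ?_)
      have h2 : πh ⟨s, hs⟩ = 0 := by
        have : ((πh ⟨s, hs⟩ : R) : W) ∈ πh.range.map R.subtype := ⟨_, ⟨_, rfl⟩, rfl⟩
        rw [h1, AddSubgroup.mem_bot] at this
        exact Subtype.ext this
      exact congrArg Subtype.val (hinj (h2.trans (map_zero πh).symm))
    · obtain ⟨r', ⟨s, hs⟩, hr⟩ := (h1.ge r.2 : (r : W) ∈ πh.range.map R.subtype)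
      exact ⟨s, hs.trans (Subtype.ext hr)⟩
  let e := AddEquiv.ofBijective πh ⟨hinj, hsurj⟩
  refine hne (isoSet_symm (R := S) hS.2.1 ⟨e, fun k r r' h => ?_⟩)
  show (π r' : W) = σ k (π r : W)
  rw [← hπk k r]
  exact congrArg (fun z => ((π z : R) : W)) (Subtype.ext h)

/-- The bound `4 |B| ≤ |C|`. -/
theorem quadratic_bound [Finite W] [Finite B] [Finite K] (hK : IsQuasisimple K)
    (hW : ∀ w : W, 2 • w = 0) (hB : ∀ b : B, b * b = 1) (hN : ∀ b, Norm σ β b)
    (hnc : ∀ b, β b ≠ 1 → ∃ k, tw σ β b k ≠ σ k)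
    (hfpf : ∀ x : K, x ∉ Subgroup.center K → Odd (orderOf x) → ∀ w, σ x w = w → w = 0)
    (hquad : ∀ b c w, β c (β b w - w) = β b w - w) (hnt : ∃ k, σ k ≠ 1)
    (τ : K →* AddMonoid.End W) (hc : ∀ k l, Commute (σ k) (τ l)) (hτ : ∃ k, τ k ≠ 1)
    {b : B} (hb : β b ≠ 1) :
    (actKer β).index * 4 ≤ Nat.card (fixA β ⊤) ∧ Nat.card W = Nat.card (fixA β ⊤) ^ 2 := by
  obtain ⟨-, hhalf⟩ := half hK hB hN hnc hfpf hquad hnt hb
  have hWc := hhalf ⊤ (fun _ _ _ => AddSubgroup.mem_top _) (fun _ _ => AddSubgroup.mem_top _)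
  rw [top_inf_eq, AddSubgroup.card_top] at hWc
  refine ⟨?_, hWc⟩
  haveI : Nontrivial W := by
    by_contra hcon
    rw [not_nontrivial_iff_subsingleton] at hcon
    exact hb (AddMonoidHom.ext fun w => Subsingleton.elim _ _)
  obtain ⟨R, -, hR0, hRmin⟩ : ∃ R ≤ (⊤ : AddSubgroup W), R ∈ {R : AddSubgroup W | R ≠ ⊥ ∧
      ∀ k, ∀ u ∈ R, σ k u ∈ R} ∧ ∀ U : AddSubgroup W,
        U ∈ {R : AddSubgroup W | R ≠ ⊥ ∧ ∀ k, ∀ u ∈ R, σ k u ∈ R} → U ≤ R → R ≤ U := by
    obtain ⟨R, hle, hmin⟩ := Finite.exists_le_minimal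
      (p := fun R : AddSubgroup W => R ≠ ⊥ ∧ ∀ k, ∀ u ∈ R, σ k u ∈ R) (a := ⊤)
      ⟨top_ne_bot, fun _ _ _ => AddSubgroup.mem_top _⟩
    exact ⟨R, hle, hmin.1, fun U hU hUR => hmin.2 hU hUR⟩
  have hR : IsMinimalInv σ R := ⟨hR0.1, hR0.2, fun U hle hU => by
    by_cases h : U = ⊥
    · exact Or.inl h
    · exact Or.inr (le_antisymm hle (hRmin U ⟨h, hU⟩ hle))⟩
  have hRtop : R ≠ ⊤ := by
    intro h
    obtain ⟨k, hk⟩ := hτ
    refine hk (not_irreducible_of_commuting hK (fun U hU => ?_) τ hc k)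
    rcases hR.2.2 U (h ▸ le_top) hU with h1 | h1
    · exact Or.inl h1
    · exact Or.inr (h1.trans h)
  have hprop : ∀ S ∈ isoSet σ R, S ≠ ⊤ := by
    rintro S hS rfl
    have hc1 := (isoSet_props hR hS).1
    rw [AddSubgroup.card_top] at hc1
    exact hRtop ((AddSubgroup.card_eq_iff_eq_top R).mp hc1.symm)
  have hmove : ∀ c, img (β c) R ∈ isoSet σ R → ∀ S ∈ isoSet σ R, img (β c) S ∈ isoSet σ R :=
    fun c hc' S hS => isoSet_trans hc' (isoSet_img hB hN hR.2.1 c hS)
  -- the elements preserving the isomorphism type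
  let B1 : Subgroup B :=
    { carrier := {c | img (β c) R ∈ isoSet σ R}
      one_mem' := by
        rw [Set.mem_setOf_eq, map_one, img_one]
        exact self_mem_isoSet
      mul_mem' := fun {c d} (hc' : img (β c) R ∈ isoSet σ R) (hd : img (β d) R ∈ isoSet σ R) => by
        rw [Set.mem_setOf_eq, map_mul, ← img_img]
        exact hmove c hc' _ hd
      inv_mem' := fun {c} hc' => by rwa [inv_eq_of_mul_eq_one_right (hB c)] }
  haveI : Finite (isoSet σ R) := Subtype.finite
  let act : MulAction B1 (isoSet σ R) :=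
    { smul := fun c S => ⟨img (β (c : B)) S, hmove _ c.2 _ S.2⟩
      one_smul := fun S => Subtype.ext (by
        show img (β ((1 : B1) : B)) S = _
        rw [OneMemClass.coe_one, map_one, img_one])
      mul_smul := fun c d S => Subtype.ext (by
        show img (β ((c * d : B1) : B)) S = _
        rw [Subgroup.coe_mul, map_mul, ← img_img]; rfl) }
  haveI : Fact (Nat.Prime 2) := ⟨Nat.prime_two⟩
  have hp : IsPGroup 2 B1 := fun c => ⟨1, by rw [pow_one, pow_two]; exact Subtype.ext (hB _)⟩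
  obtain ⟨⟨S, hSiso⟩, hSfix⟩ : (MulAction.fixedPoints B1 (isoSet σ R)).Nonempty := by
    refine hp.nonempty_fixed_point_of_prime_not_dvd_card (isoSet σ R) ?_
    rw [Nat.card_coe_set_eq, ← even_iff_two_dvd, Nat.not_even_iff_odd]
    exact odd_isoSet hW hR
  have hSinv : ∀ c ∈ B1, ∀ u ∈ S, β c u ∈ S := fun c hc' u hu => by
    have h : img (β c) S = S := congrArg Subtype.val (hSfix ⟨c, hc'⟩)
    rw [← h]; exact mem_img.mpr ⟨u, hu, rfl⟩
  obtain ⟨-, hSmin⟩ := isoSet_props hR hSiso
  by_cases hall : ∀ c, c ∈ B1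
  · exact bound_of_submodule hK hW hB hN hnc hfpf hquad hnt hb S hSmin.1 (hprop S hSiso)
      hSmin.2.1 (fun c => hSinv c (hall c))
  push Not at hall
  obtain ⟨c0, hc0⟩ := hall
  -- images of `R` are minimal
  have himg : ∀ c, IsMinimalInv σ (img (β c) R) := by
    intro c
    refine ⟨fun h => hR.1 ?_, img_inv hB hN c hR.2.1, fun U hle hU => ?_⟩
    · rw [← img_img_self hB c R (β := β), h, img_bot]
    · rcases hR.2.2 (img (β c) U) ((img_mono _ hle).trans (img_img_self hB c R).le)
        (img_inv hB hN c hU) with h | h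
      · left; rw [← img_img_self hB c U (β := β), h, img_bot]
      · right; rw [← img_img_self hB c U (β := β), h]
  have hdisjR : ∀ c, c ∉ B1 → R ⊓ img (β c) R = ⊥ := by
    intro c hc'
    rcases hR.2.2 (R ⊓ img (β c) R) inf_le_left
      (fun k u hu => ⟨hR.2.1 k u hu.1, (himg c).2.1 k u hu.2⟩) with h | h
    · exact h
    · refine absurd ?_ hc'
      show img (β c) R ∈ isoSet σ R
      rw [← AddSubgroup.eq_of_le_of_card_ge (inf_eq_left.mp h) (card_img hB c R).le]
      exact self_mem_isoSet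
  -- the stabilizer of the type acts trivially
  have hstab : ∀ d ∈ B1, β d = 1 := by
    intro d hd
    by_contra hd1
    obtain ⟨hCd, hhalfd⟩ := half hK hB hN hnc hfpf hquad hnt hd1
    have hne : img (β c0) S ≠ S := by
      intro h
      refine hc0 ?_
      have h1 := isoSet_img hB hN hSmin.2.1 c0 (isoSet_symm hR.2.1 hSiso)
      rw [h] at h1
      exact isoSet_trans hSiso h1
    have hdisj : S ⊓ img (β c0) S = ⊥ := by
      rcases hSmin.2.2 (S ⊓ img (β c0) S) inf_le_left
        (fun k u hu => ⟨hSmin.2.1 k u hu.1, img_inv hB hN c0 hSmin.2.1 k u hu.2⟩) with h | h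
      · exact h
      · exact absurd (AddSubgroup.eq_of_le_of_card_ge (inf_eq_left.mp h) (card_img hB c0 S).le).symm
          hne
    -- hence `S` consists of fixed points
    have h1 : S ⊓ fixA β ⊤ = S := inf_eq_left.mpr fun v hv => by
      rw [← hCd, mem_fix]
      intro f hf
      rw [Set.mem_singleton_iff.mp hf]
      have hdv : β d v - v ∈ S := S.sub_mem (hSinv d hd v hv) hv
      have h : β d v - v ∈ S ⊓ img (β c0) S := ⟨hdv, mem_img.mpr ⟨_, hdv, hquad d c0 v⟩⟩
      rw [hdisj, AddSubgroup.mem_bot, sub_eq_zero] at h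
      exact h
    have h2 := hhalfd S hSmin.2.1 (hSinv d hd)
    rw [h1, pow_two] at h2
    have h3 := Nat.eq_of_mul_eq_mul_left (Nat.card_pos (α := S)) ((mul_one _).trans h2)
    exact hSmin.1 (AddSubgroup.eq_bot_of_card_eq _ h3.symm)
  -- three types are impossible
  have hclass : ∀ c, c ∈ actKer β ∨ c0⁻¹ * c ∈ actKer β := by
    intro c
    by_contra hc'
    push Not at hc'
    obtain ⟨hc1, hc2⟩ := hc'
    rw [inv_eq_of_mul_eq_one_right (hB c0)] at hc2
    have hcB : c ∉ B1 := fun h => hc1 (mem_actKer.mpr (hstab c h))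
    have hcc : c0 * c ∉ B1 := fun h => hc2 (mem_actKer.mpr (hstab _ h))
    set Rb := img (β c0) R with hRb
    set Rc := img (β c) R with hRc
    set Rd := img (β (c0 * c)) R with hRd
    have hRbd : img (β c0) Rb = R := img_img_self hB c0 R
    have hRcd : img (β c0) Rc = Rd := by rw [hRc, hRd, img_img, ← map_mul]
    have hRdc : img (β c0) Rd = Rc := by rw [← hRcd]; exact img_img_self hB c0 Rc
    have hsupinv : ∀ k, ∀ u ∈ Rb ⊔ Rc, σ k u ∈ Rb ⊔ Rc := by
      intro k u hu
      obtain ⟨x, hx, y, hy, rfl⟩ := AddSubgroup.mem_sup.mp hu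
      rw [map_add]
      exact add_mem (AddSubgroup.mem_sup_left ((himg _).2.1 k x hx))
        (AddSubgroup.mem_sup_right ((himg _).2.1 k y hy))
    have hdisj : R ⊓ (Rb ⊔ Rc) = ⊥ := by
      rcases hR.2.2 (R ⊓ (Rb ⊔ Rc)) inf_le_left
        (fun k u hu => ⟨hR.2.1 k u hu.1, hsupinv k u hu.2⟩) with h | h
      · exact h
      · exfalso
        have h1 : Rb ≤ R ⊔ Rd := by
          have := img_mono (β c0) (inf_eq_left.mp h)
          rwa [img_sup, hRbd, hRcd] at this
        have h2 := le_of_not_iso hR (himg c0) (himg _).2.1 (hdisjR _ hcc) h1 hc0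
        have h3 : Rb = Rd := AddSubgroup.eq_of_le_of_card_ge h2 (by
          rw [hRb, hRd, card_img hB, card_img hB])
        have h4 := congrArg (img (β c0)) h3
        rw [hRbd, hRdc] at h4
        exact hcB (show img (β c) R ∈ isoSet σ R by rw [← hRc, ← h4]; exact self_mem_isoSet)
    have hsum : Rd ≤ R ⊔ (Rb ⊔ Rc) := by
      intro w hw
      obtain ⟨v, hv, rfl⟩ := mem_img.mp hw
      have h1 := hquad c c0 v
      rw [map_sub] at h1
      have e : β (c0 * c) v = β c0 v + (β c v - v) := by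
        rw [map_mul, endo_mul_apply, ← h1]; abel
      rw [e]
      exact add_mem (AddSubgroup.mem_sup_right (AddSubgroup.mem_sup_left (mem_img.mpr ⟨v, hv, rfl⟩)))
        (sub_mem (AddSubgroup.mem_sup_right (AddSubgroup.mem_sup_right (mem_img.mpr ⟨v, hv, rfl⟩)))
          (AddSubgroup.mem_sup_left hv))
    have h5 := le_of_not_iso hR (himg (c0 * c)) hsupinv hdisj hsum hcc
    have h6 : Rc ≤ R ⊔ Rd := by
      have := img_mono (β c0) h5
      rwa [img_sup, hRbd, hRcd, hRdc] at this
    have h7 := le_of_not_iso hR (himg c) (himg _).2.1 (hdisjR _ hcc) h6 hcB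
    have h8 : Rc = Rd := AddSubgroup.eq_of_le_of_card_ge h7 (by
      rw [hRc, hRd, card_img hB, card_img hB])
    have h10 := congrArg (img (β c)) h8
    rw [hRc, hRd, img_img_self hB, img_img, ← map_mul, mul_left_comm, hB, mul_one] at h10
    exact hc0 (show img (β c0) R ∈ isoSet σ R by rw [← h10]; exact self_mem_isoSet)
  have hidx : (actKer β).index ≤ 2 := by
    rw [Subgroup.index_eq_card]
    haveI := Fintype.ofFinite (B ⧸ actKer β)
    rw [Nat.card_eq_fintype_card]
    calc Fintype.card (B ⧸ actKer β) ≤ Fintype.card Bool :=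
          Fintype.card_le_of_surjective
            (fun t : Bool => if t then ((c0 : B) : B ⧸ actKer β) else ((1 : B) : B ⧸ actKer β))
            (fun q => by
              induction q using QuotientGroup.induction_on with
              | H c =>
                rcases hclass c with h | h
                · exact ⟨false, by simp only [Bool.false_eq_true, if_false, QuotientGroup.eq]; simpa using h⟩
                · exact ⟨true, by simp only [if_true, QuotientGroup.eq]; exact h⟩)
      _ = 2 := rfl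
  -- and two types make `W` big
  have hR5 : 5 ≤ Nat.card R := by
    by_contra hlt
    obtain ⟨x, hx, hxo⟩ := exists_noncentral_coprime hK 2
    have h1 := trivial_on_small (σ := restr σ R hR.2.1) hK (by omega) x
    refine hR.1 ((AddSubgroup.eq_bot_iff_forall _).mpr fun r hr => ?_)
    refine hfpf x hx (Nat.coprime_two_right.mp hxo) r ?_
    exact congrArg Subtype.val (DFunLike.congr_fun h1 (⟨r, hr⟩ : R))
  have hbig : Nat.card R * Nat.card R ≤ Nat.card W := by
    have h1 := card_add_mul_le R (img (β c0) R)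
    rw [hdisjR c0 hc0, AddSubgroup.card_bot, mul_one, card_img hB] at h1
    exact h1.trans (AddSubgroup.card_le_card_addGroup _)
  obtain ⟨m, hm⟩ := card_two_pow hW (fixA β ⊤)
  rw [hWc, hm, pow_two] at hbig
  have hm3 : 3 ≤ m := by
    by_contra hlt
    have : 2 ^ m ≤ 2 ^ 2 := Nat.pow_le_pow_right (by norm_num) (by omega)
    nlinarith
  rw [hm]
  calc (actKer β).index * 4 ≤ 2 ^ 1 * 2 ^ 2 := Nat.mul_le_mul_right _ hidx
    _ ≤ 2 ^ m := by rw [← pow_add]; exact Nat.pow_le_pow_right (by norm_num) (by omega)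

end Cfsg.Agent.LocEven.Chermak
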