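import Cfsg.Agent.LocEven.Chermak.Small
import Cfsg.Agent.LocEven.Chermak.Weight

/-!
A quadratic 2-group normalizing `K`, acting on a module where noncentral odd elements of `K`
are fixed point free and where a second commuting copy of `K` acts: the group is small.
-/

set_option autoImplicit false

namespace Cfsg.Agent.LocEven.Chermak

open Cfsg

variable {W : Type*} [AddCommGroup W] {K B : Type*} [Group K] [CommGroup B]
variable {σ : K →* AddMonoid.End W} {β : B →* AddMonoid.End W}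

theorem card_two_pow [Finite W] (hW : ∀ w : W, 2 • w = 0) (U : AddSubgroup W) :
    ∃ n, Nat.card U = 2 ^ n := by
  haveI : Fact (Nat.Prime 2) := ⟨Nat.prime_two⟩
  have h : IsPGroup 2 (Multiplicative U) := fun g => ⟨1, by
    refine Multiplicative.toAdd.injective ?_
    rw [pow_one, toAdd_pow, toAdd_one]
    exact Subtype.ext (hW _)⟩
  obtain ⟨n, hn⟩ := IsPGroup.iff_card.mp h
  exact ⟨n, hn⟩

/-- Elements of `B` acting trivially. -/
def actKer (β : B →* AddMonoid.End W) : Subgroup B := β.toHomUnits.ker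

theorem mem_actKer {b : B} : b ∈ actKer β ↔ β b = 1 := by
  rw [actKer, MonoidHom.mem_ker, Units.ext_iff]; rfl

section setup

variable [Finite W] [Finite B] [Finite K]
variable (hK : IsQuasisimple K) (hW : ∀ w : W, 2 • w = 0)
  (hB : ∀ b : B, b * b = 1) (hN : ∀ b, Norm σ β b)
  (hnc : ∀ b, β b ≠ 1 → ∃ k, tw σ β b k ≠ σ k)
  (hfpf : ∀ x : K, x ∉ Subgroup.center K → Odd (orderOf x) → ∀ w, σ x w = w → w = 0)
  (hquad : ∀ b c w, β c (β b w - w) = β b w - w)
  (hnt : ∃ k, σ k ≠ 1)

include hK hB hN hnc hfpf hquad hnt in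
/-- Every nontrivial element of `B` has the same fixed points, half of every invariant submodule. -/
theorem half {b : B} (hb : β b ≠ 1) :
    fix {β b} = fixA β ⊤ ∧
      ∀ U : AddSubgroup W, (∀ k, ∀ u ∈ U, σ k u ∈ U) → (∀ u ∈ U, β b u ∈ U) →
        Nat.card U = Nat.card (U ⊓ fixA β ⊤ : AddSubgroup W) ^ 2 := by
  obtain ⟨x, hx, hxo, hinv⟩ := exists_inverted hK hnt (hB b) (hN b) (hnc b hb)
  set C := fix {β b} with hC
  have hCm : ∀ v, v ∈ C ↔ β b v = v := fun v => by simp [hC, mem_fix]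
  have hmeet : ∀ v, v ∈ C → σ x v ∈ C → v = 0 := by
    intro v hv hxv
    rw [hCm] at hv hxv
    have h := DFunLike.congr_fun hinv v
    rw [endo_mul_apply, endo_mul_apply, hv, hxv] at h
    refine hfpf (x * x) ?_ ?_ v ?_
    · intro hc
      obtain ⟨n, hn⟩ := hxo
      refine hx ?_
      have : x = (x * x) ^ (n + 1) := by
        rw [← pow_two, ← pow_mul, show 2 * (n + 1) = orderOf x + 1 by omega, pow_succ,
          pow_orderOf_eq_one, one_mul]
      rw [this]; exact Subgroup.pow_mem _ hc _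
    · rw [← pow_two]; exact hxo.of_dvd_nat (orderOf_pow_dvd 2)
    · rw [map_mul, endo_mul_apply, h, ← endo_mul_apply, ← map_mul, mul_inv_cancel, map_one]; rfl
  have htopC : fixA β ⊤ ≤ C := fun v hv => (hCm v).mpr (mem_fixA.mp hv b (Subgroup.mem_top b))
  have hcomm : ∀ v, β b v - v ∈ fixA β ⊤ := fun v =>
    mem_fixA.mpr fun c _ => hquad b c v
  -- counting on any invariant submodule
  have count : ∀ U : AddSubgroup W, (∀ k, ∀ u ∈ U, σ k u ∈ U) → (∀ u ∈ U, β b u ∈ U) →
      Nat.card (U ⊓ C : AddSubgroup W) ^ 2 ≤ Nat.card U ∧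
      Nat.card U ≤ Nat.card (U ⊓ C : AddSubgroup W) * Nat.card (U ⊓ fixA β ⊤ : AddSubgroup W) := by
    intro U hUk hUb
    constructor
    · rw [pow_two, ← Nat.card_prod]
      refine Nat.card_le_card_of_injective (fun p : (U ⊓ C : AddSubgroup W) × (U ⊓ C : AddSubgroup W)
        => (⟨(p.1 : W) + σ x p.2, U.add_mem p.1.2.1 (hUk x _ p.2.2.1)⟩ : U)) ?_
      rintro ⟨p, q⟩ ⟨p', q'⟩ h
      have h1 : (p : W) + σ x q = p' + σ x q' := congrArg Subtype.val h
      have h2 : (q : W) - q' = 0 := by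
        refine hmeet _ (C.sub_mem q.2.2 q'.2.2) ?_
        have : σ x ((q : W) - q') = (p' : W) - p := by
          rw [map_sub, eq_sub_iff_add_eq, sub_add_eq_add_sub, sub_eq_iff_eq_add, add_comm, h1]
        rw [this]; exact C.sub_mem p'.2.2 p.2.2
      rw [sub_eq_zero] at h2
      rw [h2] at h1
      exact Prod.ext (Subtype.ext (add_right_cancel h1)) (Subtype.ext h2)
    · let f : U →+ W := AddMonoidHom.mk' (fun u : U => β b u - u) (fun u v => by
        rw [AddSubgroup.coe_add, map_add]; abel)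
      have hf : ∀ u : U, f u = β b u - u := fun u => rfl
      have hker : Nat.card f.ker ≤ Nat.card (U ⊓ C : AddSubgroup W) :=
        Nat.card_le_card_of_injective (fun u : f.ker => (⟨((u : U) : W), (u : U).2, (hCm _).mpr
          (sub_eq_zero.mp ((hf u).symm.trans u.2))⟩ : (U ⊓ C : AddSubgroup W)))
          (fun u v h => Subtype.ext (Subtype.ext (congrArg (fun z => ((z : (U ⊓ C : AddSubgroup W)) : W)) h)))
      have hr : f.range ≤ U ⊓ fixA β ⊤ := by
        rintro _ ⟨u, rfl⟩
        exact ⟨U.sub_mem (hUb u u.2) u.2, hcomm u⟩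
      rw [← AddSubgroup.card_mul_index f.ker, AddSubgroup.index_ker]
      exact Nat.mul_le_mul hker (AddSubgroup.card_le_of_le hr)
  have hCeq : C = fixA β ⊤ := by
    obtain ⟨h1, h2⟩ := count ⊤ (fun _ _ _ => AddSubgroup.mem_top _) (fun _ _ => AddSubgroup.mem_top _)
    rw [top_inf_eq] at h1 h2
    refine (AddSubgroup.eq_of_le_of_card_ge htopC ?_).symm
    rw [top_inf_eq] at h2
    have h3 := h1.trans h2
    rw [pow_two] at h3
    exact Nat.le_of_mul_le_mul_left h3 Nat.card_pos
  refine ⟨hCeq, fun U hUk hUb => ?_⟩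
  obtain ⟨h1, h2⟩ := count U hUk hUb
  rw [hCeq] at h1 h2
  rw [pow_two] at h1 ⊢
  exact le_antisymm h2 h1

include hK hW hB hN hnc hfpf hquad hnt in
/-- The index bound, given a proper invariant submodule. -/
theorem bound_of_submodule {b : B} (hb : β b ≠ 1) (U : AddSubgroup W) (hU0 : U ≠ ⊥) (hU : U ≠ ⊤)
    (hUk : ∀ k, ∀ u ∈ U, σ k u ∈ U) (hUb : ∀ c, ∀ u ∈ U, β c u ∈ U) :
    (actKer β).index * 4 ≤ Nat.card (fixA β ⊤) := by
  obtain ⟨hCb, hhalf⟩ := half hK hB hN hnc hfpf hquad hnt hb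
  have hUc := hhalf U hUk (hUb b)
  have hWc := hhalf ⊤ (fun _ _ _ => AddSubgroup.mem_top _) (fun _ _ => AddSubgroup.mem_top _)
  rw [top_inf_eq, AddSubgroup.card_top] at hWc
  set C := fixA β ⊤ with hC
  -- a vector of `U` moved by `b`
  obtain ⟨v, hvU, hvC⟩ : ∃ v ∈ U, v ∉ C := by
    by_contra hcon
    push Not at hcon
    have : U ⊓ C = U := inf_eq_left.mpr hcon
    rw [this, pow_two] at hUc
    have h1 : Nat.card U = 1 := by
      have := Nat.eq_of_mul_eq_mul_left (Nat.card_pos (α := U)) ((mul_one _).trans hUc)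
      exact this.symm
    exact hU0 (AddSubgroup.eq_bot_of_card_eq _ h1)
  have hidx : (actKer β).index ≤ Nat.card (U ⊓ C : AddSubgroup W) := by
    rw [Subgroup.index_eq_card]
    refine Nat.card_le_card_of_injective (fun q : B ⧸ actKer β =>
      (⟨β q.out v - v, U.sub_mem (hUb _ v hvU) hvU, mem_fixA.mpr fun c _ => hquad _ c v⟩ :
        (U ⊓ C : AddSubgroup W))) ?_
    intro q q' h
    have h1 : β q.out v - v = β q'.out v - v := congrArg Subtype.val h
    rw [sub_left_inj] at h1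
    rw [← QuotientGroup.out_eq' q, ← QuotientGroup.out_eq' q', QuotientGroup.eq, mem_actKer]
    by_contra hne
    refine hvC ?_
    show v ∈ fixA β ⊤
    rw [← (half hK hB hN hnc hfpf hquad hnt hne).1, mem_fix]
    intro f hf
    rw [Set.mem_singleton_iff] at hf
    rw [hf, map_mul, endo_mul_apply, ← h1, ← endo_mul_apply, ← map_mul, inv_mul_cancel, map_one]
    rfl
  obtain ⟨n, hn⟩ := card_two_pow hW (U ⊓ C)
  obtain ⟨m, hm⟩ := card_two_pow hW C
  have hnm : n ≤ m := by
    have := AddSubgroup.card_le_of_le (inf_le_right : U ⊓ C ≤ C)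
    rw [hn, hm] at this
    exact (Nat.pow_le_pow_iff_right (by norm_num)).mp this
  rcases Nat.lt_or_ge (n + 1) m with h | h
  · rw [hm]
    calc (actKer β).index * 4 ≤ 2 ^ n * 2 ^ 2 := by rw [← hn]; exact Nat.mul_le_mul_right _ hidx
      _ ≤ 2 ^ m := by rw [← pow_add]; exact Nat.pow_le_pow_right (by norm_num) (by omega)
  -- otherwise the quotient has at most four elements
  exfalso
  have hq : Nat.card (W ⧸ U) ≤ 4 := by
    have h1 := AddSubgroup.card_eq_card_quotient_mul_card_addSubgroup U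
    rw [hWc, hUc, hn, hm] at h1
    refine Nat.le_of_mul_le_mul_right ?_ (pow_pos (pow_pos (two_pos (α := ℕ)) n) 2)
    rw [← h1]
    calc (2 ^ m) ^ 2 ≤ (2 ^ (n + 1)) ^ 2 := Nat.pow_le_pow_left (Nat.pow_le_pow_right (by norm_num) h) 2
      _ = 4 * (2 ^ n) ^ 2 := by ring
  haveI : Fact (Nat.Prime 2) := ⟨Nat.prime_two⟩
  obtain ⟨x, hx, hxo⟩ := exists_noncentral_coprime hK 2
  have htriv := trivial_on_small (σ := quot σ U hUk) hK hq x
  have hres : ∀ w, σ x w - w ∈ U := fun w => by
    rw [← QuotientAddGroup.eq_zero_iff, QuotientAddGroup.mk_sub, sub_eq_zero]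
    exact DFunLike.congr_fun htriv (w : W ⧸ U)
  refine hU (eq_top_iff.mpr fun w _ => ?_)
  have hbij : Function.Surjective (fun u : U => (⟨σ x u - u, U.sub_mem (hUk x u u.2) u.2⟩ : U)) := by
    refine (Finite.injective_iff_surjective).mp fun u u' h => Subtype.ext ?_
    have h1 : σ x u - u = σ x u' - u' := congrArg Subtype.val h
    refine sub_eq_zero.mp (hfpf x hx (Nat.coprime_two_right.mp hxo) _ ?_)
    rw [map_sub]
    calc σ x u - σ x u' = (σ x u - u) - (σ x u' - u') + ((u : W) - u') := by abel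
      _ = _ := by rw [h1]; abel
  obtain ⟨u, hu⟩ := hbij ⟨_, hres w⟩
  have h1 : σ x u - u = σ x w - w := congrArg Subtype.val hu
  have h2 : w - u = 0 := by
    refine hfpf x hx (Nat.coprime_two_right.mp hxo) _ ?_
    rw [map_sub]
    calc σ x w - σ x u = (σ x w - w) - (σ x u - u) + (w - u) := by abel
      _ = _ := by rw [h1]; abel
  rw [sub_eq_zero] at h2
  rw [h2]; exact u.2

end setup

end Cfsg.Agent.LocEven.Chermak
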