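import Cfsg.Agent.LocEven.Chermak.Orbit

/-!
Coprime splitting, and: for odd `p` the orbit product cannot fix `[V,a]`.
-/

set_option autoImplicit false

namespace Cfsg.Agent.LocEven.Chermak

open Cfsg

variable {V : Type*} [AddCommGroup V]

/-- A fixed-point projection for an endomorphism of order prime to the exponent. -/
theorem exists_proj {p : ℕ} [hp : Fact p.Prime] (hV : ∀ v : V, p • v = 0) {f : AddMonoid.End V}
    {m : ℕ} (hm : f ^ m = 1) (hcop : m.Coprime p) :
    ∃ e : AddMonoid.End V, (∀ v, f (e v) = e v) ∧ (∀ v, ∃ u, v - e v = f u - u) ∧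
      (∀ g, Commute g f → Commute g e) := by
  obtain ⟨j, -, hj⟩ := Nat.exists_mul_mod_eq_one_of_coprime hcop hp.out.one_lt
  have hEnd : ∀ g : AddMonoid.End V, p • g = 0 := fun g => AddMonoidHom.ext fun v => hV (g v)
  set S : AddMonoid.End V := ∑ i ∈ Finset.range m, f ^ i with hS
  refine ⟨j • S, fun v => ?_, fun v => ?_, fun g hg => ?_⟩
  · have h1 : f * S = S := by
      have h := geom_sum_mul f m
      rw [hm, sub_self] at h
      have h2 := mul_geom_sum f m
      rw [hm, sub_self, sub_mul, one_mul, sub_eq_zero] at h2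
      exact h2
    show (f * (j • S)) v = _
    rw [mul_smul_comm, h1]
  · -- `v - f^i v` lies in the image of `f - 1`
    have h1 : ∀ i, ∃ u, (1 - f ^ i : AddMonoid.End V) = (f - 1) * u := fun i =>
      ⟨-∑ t ∈ Finset.range i, f ^ t, by rw [mul_neg, mul_geom_sum, neg_sub]⟩
    choose u hu using h1
    have h2 : (1 - j • S : AddMonoid.End V) = (f - 1) * (j • ∑ i ∈ Finset.range m, u i) := by
      rw [mul_smul_comm, Finset.mul_sum, Finset.sum_congr rfl (fun i _ => (hu i).symm),
        Finset.sum_sub_distrib, Finset.sum_const, Finset.card_range, nsmul_sub, ← hS, ← mul_nsmul']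
      congr 1
      rw [mul_comm j m, ← Nat.mod_add_div (m * j) p, hj, add_nsmul, one_nsmul, mul_nsmul, hEnd,
        nsmul_zero, add_zero]
    exact ⟨(j • ∑ i ∈ Finset.range m, u i) v, DFunLike.congr_fun h2 v⟩
  · exact (Commute.sum_right _ _ _ fun i _ => hg.pow_right i).smul_right j

variable {K A : Type*} [Group K] [CommGroup A]
variable {σ : K →* AddMonoid.End V} {α : A →* AddMonoid.End V}

theorem orb_eq_pow {a : A} {x : K} {v : V} :
    ∀ n, (∀ i < n, tw σ α (a ^ i) x v = σ x v) →
      (∀ i < n, Commute (tw σ α (a ^ i) x) (σ x)) → orb σ α a n x v = (σ x ^ n) v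
  | 0, _, _ => by simp [orb]
  | n + 1, h, hc => by
    rw [orb, endo_mul_apply, h n (by omega)]
    have hcomm : Commute (orb σ α a n x) (σ x) := by
      have := orb_commute (σ := σ) (α := α) (a := a) (j := 0) (l := x) (n := n) x
        (fun i hi => by rw [pow_zero, tw_one]; exact hc i (by omega))
      rwa [pow_zero, tw_one] at this
    show (orb σ α a n x * σ x) v = _
    rw [hcomm.eq, endo_mul_apply, orb_eq_pow n (fun i hi => h i (by omega))
      (fun i hi => hc i (by omega)), ← endo_mul_apply, ← pow_succ']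

/-- For odd `p` the orbit product cannot fix `[V,a]`. -/
theorem not_orb_fixes [Finite K] {p : ℕ} [hp : Fact p.Prime] (hp2 : p ≠ 2)
    (hV : ∀ v : V, p • v = 0) (hK : IsQuasisimple K) (hnt : ∃ k, σ k ≠ 1) {a : A}
    (hap : a ^ p = 1) (hO : OrbComm σ α a p)
    (hfix : ∀ k v, orb σ α a p k (α a v - v) = α a v - v) : False := by
  obtain ⟨x, hx, hxp⟩ := exists_noncentral_coprime hK p
  have hp3 : 3 ≤ p := by have := hp.out.two_le; omega
  set T := orbHom hO x with hT
  set Xi : ℕ → AddMonoid.End V := fun i => tw σ α (a ^ i) x with hXi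
  set X := σ x with hX
  have hX0 : Xi 0 = X := by simp [hXi, hX, tw_one]
  have hXT : ∀ i < p, Commute (Xi i) T := fun i hi => by
    refine (orb_commute (j := i) (l := x) x fun j hj => ?_).symm
    by_cases h : j = i
    · subst h; exact Commute.refl _
    · exact hO j hj i hi h x x
  have hcommK : ∀ i < p, ∀ j < p, i ≠ j → ∀ l v, Xi i (tw σ α (a ^ j) l v) =
      tw σ α (a ^ j) l (Xi i v) := fun i hi j hj hij l v =>
    DFunLike.congr_fun (hO i hi j hj hij x l).eq v
  have hcomm0 : ∀ i < p, Commute (Xi i) X := fun i hi => by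
    by_cases h : i = 0
    · subst h; rw [hX0]
    · have := hO i hi 0 (by omega) h x x
      rwa [pow_zero, tw_one] at this
  have hTm : T ^ orderOf x = 1 := by rw [hT, ← map_pow, pow_orderOf_eq_one, map_one]
  have hXm : X ^ orderOf x = 1 := by rw [hX, ← map_pow, pow_orderOf_eq_one, map_one]
  obtain ⟨e, he1, he2, he3⟩ := exists_proj hV hTm hxp
  -- `a` fixes the image of `T - 1`, so all `Xᵢ` agree there
  have hW : ∀ u i, i < p → Xi i (T u - u) = X (T u - u) := by
    have ha : ∀ u, α a (T u - u) = T u - u := by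
      intro u
      have h1 := hfix x u
      rw [map_sub] at h1
      have h2 : orb σ α a p x (α a u) = α a (orb σ α a p x u) :=
        DFunLike.congr_fun (orb_commute_self hap hO x).eq.symm u
      rw [h2] at h1
      have h3 : T u = orb σ α a p x u := rfl
      rw [map_sub, h3]
      calc α a (orb σ α a p x u) - α a u
          = (α a (orb σ α a p x u) - orb σ α a p x u) + orb σ α a p x u - α a u := by abel
        _ = _ := by rw [h1]; abel
    intro u i hi
    have hinv : α (a ^ i)⁻¹ (T u - u) = T u - u := by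
      have : (a ^ i)⁻¹ = a ^ (p * i - i) := by
        rw [inv_eq_iff_mul_eq_one, ← pow_add,
          Nat.add_sub_cancel' (Nat.le_mul_of_pos_left i (by omega)), pow_mul, hap, one_pow]
      rw [this, map_pow]
      exact endo_pow_fix (ha u) _
    have hXW : X (T u - u) = T (X u) - X u := by
      rw [map_sub, ← endo_mul_apply, ← hX0, (hXT 0 (by omega)).eq]
      rfl
    show tw σ α (a ^ i) x (T u - u) = _
    rw [tw_apply, endo_mul_apply, endo_mul_apply, hinv]
    show α (a ^ i) (X (T u - u)) = X (T u - u)
    rw [hXW, map_pow]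
    exact endo_pow_fix (ha _) _
  have hTprod : ∀ v, (∀ i < p, Xi i v = X v) → T v = (X ^ p) v := fun v h =>
    orb_eq_pow p h hcomm0
  -- on the subgroup where the other copies agree with `X`, so does the copy number 2
  set E : AddSubgroup V :=
    { carrier := {v | ∀ i < p, i ≠ 2 → Xi i v = X v}
      add_mem' := fun {u v} hu hv i hi h => by rw [map_add, map_add, hu i hi h, hv i hi h]
      zero_mem' := fun i _ _ => by rw [map_zero, map_zero]
      neg_mem' := fun {v} hv i hi h => by rw [map_neg, map_neg, hv i hi h] } with hE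
  have hmemE : ∀ v, v ∈ E ↔ ∀ i < p, i ≠ 2 → Xi i v = X v := fun v => Iff.rfl
  have hXK2 : ∀ l v, X (tw σ α (a ^ 2) l v) = tw σ α (a ^ 2) l (X v) := fun l v => by
    rw [← hX0]; exact hcommK 0 (by omega) 2 (by omega) (by omega) l v
  have hEinv : ∀ l, ∀ v ∈ E, tw σ α (a ^ 2) l v ∈ E := by
    intro l v hv i hi h2
    rw [hcommK i hi 2 (by omega) h2, hv i hi h2, hXK2]
  -- the fixed part
  have hEfix : ∀ v ∈ E, T v = v → Xi 2 v = X v := by
    intro v hv hTv
    set E' : AddSubgroup V :=
      { carrier := {u | (∀ i < p, i ≠ 1 → i ≠ 2 → Xi i u = X u) ∧ (X ^ (p - 1)) (Xi 2 u) = u}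
        add_mem' := fun {u v} hu hv => ⟨fun i hi h h' => by
            rw [map_add, map_add, hu.1 i hi h h', hv.1 i hi h h'],
          by rw [map_add, map_add, hu.2, hv.2]⟩
        zero_mem' := ⟨fun i _ _ _ => by rw [map_zero, map_zero], by rw [map_zero, map_zero]⟩
        neg_mem' := fun {v} hv => ⟨fun i hi h h' => by rw [map_neg, map_neg, hv.1 i hi h h'],
          by rw [map_neg, map_neg, hv.2]⟩ } with hE'
    -- `T` splits as the other copies times copy 2
    have hsplit : ∀ u, (∀ i < p, i ≠ 2 → Xi i u = X u) → T u = (X ^ (p - 1)) (Xi 2 u) := by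
      intro u hu
      have key : ∀ n ≤ p, 3 ≤ n → orb σ α a n x u = (X ^ (n - 1)) (Xi 2 u) := by
        intro n hn h3
        induction n, h3 using Nat.le_induction with
        | base =>
          have h1 : Xi 1 (Xi 2 u) = X (Xi 2 u) := by
            rw [hcommK 1 (by omega) 2 (by omega) (by omega) x u, hu 1 (by omega) (by omega)]
            exact DFunLike.congr_fun (hcomm0 2 (by omega)).eq u
          show orb σ α a 3 x u = (X ^ 2) (Xi 2 u)
          simp only [orb, one_mul]
          show Xi 0 (Xi 1 (Xi 2 u)) = _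
          rw [h1, hX0, pow_two]
          rfl
        | succ n h3 ih =>
          have h1 : orb σ α a (n + 1) x u = orb σ α a n x (Xi n u) := rfl
          have hc : Commute (orb σ α a n x) X := by
            have := orb_commute (σ := σ) (α := α) (a := a) (j := 0) (l := x) (n := n) x
              (fun i hi => by rw [pow_zero, tw_one]; exact hcomm0 i (by omega))
            rwa [pow_zero, tw_one] at this
          rw [h1, hu n (by omega) (by omega), ← endo_mul_apply, hc.eq, endo_mul_apply,
            ih (by omega), ← endo_mul_apply, ← pow_succ', show n - 1 + 1 = n + 1 - 1 by omega]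
      exact key p le_rfl hp3
    have hvE' : v ∈ E' := ⟨fun i hi _ h => hv i hi h, by rw [← hsplit v hv, hTv]⟩
    have hinv1 : ∀ l, ∀ u ∈ E', tw σ α (a ^ 1) l u ∈ E' := by
      rintro l u ⟨hu1, hu2⟩
      have hc : ∀ w, X (tw σ α (a ^ 1) l w) = tw σ α (a ^ 1) l (X w) := fun w => by
        rw [← hX0]; exact hcommK 0 (by omega) 1 (by omega) (by omega) l w
      refine ⟨fun i hi h1 h2 => ?_, ?_⟩
      · rw [hcommK i hi 1 (by omega) h1, hu1 i hi h1 h2, hc]
      · have hcn : ∀ n w, (X ^ n) (tw σ α (a ^ 1) l w) = tw σ α (a ^ 1) l ((X ^ n) w) := by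
          intro n
          induction n with
          | zero => intro w; simp
          | succ n ih => intro w; rw [pow_succ, endo_mul_apply, hc, ih]; rfl
        rw [hcommK 2 (by omega) 1 (by omega) (by omega), hcn, hu2]
    have hE'1 : ∀ u ∈ E', Xi 1 u = X u := by
      rintro u hu
      have hinvT : T u ∈ E' ∧ e u ∈ E' := by
        have hgen : ∀ g : AddMonoid.End V, (∀ i < p, Commute (Xi i) g) → g u ∈ E' := by
          intro g hg
          have hg0 : Commute X g := hX0 ▸ hg 0 (by omega)
          refine ⟨fun i hi h1 h2 => ?_, ?_⟩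
          · show (Xi i * g) u = (X * g) u
            rw [(hg i hi).eq, hg0.eq, endo_mul_apply, endo_mul_apply, hu.1 i hi h1 h2]
          · show (X ^ (p - 1) * Xi 2 * g) u = g u
            rw [((hg0.pow_left _).mul_left (hg 2 (by omega))).eq, endo_mul_apply, endo_mul_apply,
              hu.2]
        exact ⟨hgen T hXT, hgen e fun i hi => he3 _ (hXT i hi)⟩
      -- the moving part vanishes
      obtain ⟨w, hw⟩ := he2 u
      have hwE : T w - w ∈ E' := hw ▸ E'.sub_mem hu hinvT.2
      have h0 : T w - w = 0 := by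
        have h1 := hwE.2
        rw [hW w 2 (by omega), ← endo_mul_apply, ← pow_succ, Nat.sub_add_cancel (by omega)] at h1
        have h2 : X (T w - w) = T w - w := by
          obtain ⟨j, -, hj⟩ := Nat.exists_mul_mod_eq_one_of_coprime hxp.symm
            (show 1 < orderOf x by
              by_contra hlt
              exact hx (by
                rw [orderOf_eq_one_iff.mp (le_antisymm (by omega) (orderOf_pos x))]
                exact Subgroup.one_mem _))
          have h3 := endo_pow_fix h1 j
          rw [← pow_mul, ← Nat.mod_add_div (p * j) (orderOf x), hj, pow_add, pow_one, pow_mul, hXm,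
            one_pow, mul_one] at h3
          exact h3
        have h4 : T (T w - w) = T w - w := by
          rw [hTprod _ (fun i hi => hW w i hi)]
          exact endo_pow_fix h2 p
        exact sub_eq_zero.mpr (eq_of_coprime_pow hV hTm hxp h4)
      rw [h0, sub_eq_zero] at hw
      have hTu : T u = u := by rw [hw]; exact he1 u
      -- cancel
      have hall : ∀ i < p, i ≠ 1 → i ≠ 2 → Xi i u = X u := hu.1
      have key : ∀ n ≤ p, 3 ≤ n → orb σ α a n x u = (X ^ (n - 2)) (Xi 1 (Xi 2 u)) := by
        intro n hn h3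
        induction n, h3 using Nat.le_induction with
        | base =>
          show orb σ α a 3 x u = (X ^ 1) (Xi 1 (Xi 2 u))
          simp only [orb, one_mul]
          show Xi 0 (Xi 1 (Xi 2 u)) = _
          rw [hX0, pow_one]
        | succ n h3 ih =>
          have h1 : orb σ α a (n + 1) x u = orb σ α a n x (Xi n u) := rfl
          have hc : Commute (orb σ α a n x) X := by
            have := orb_commute (σ := σ) (α := α) (a := a) (j := 0) (l := x) (n := n) x
              (fun i hi => by rw [pow_zero, tw_one]; exact hcomm0 i (by omega))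
            rwa [pow_zero, tw_one] at this
          rw [h1, hall n (by omega) (by omega) (by omega), ← endo_mul_apply, hc.eq, endo_mul_apply,
            ih (by omega), ← endo_mul_apply, ← pow_succ', show n - 2 + 1 = n + 1 - 2 by omega]
      have h5 : (X ^ (p - 2)) (Xi 1 (Xi 2 u)) = u := (key p le_rfl hp3).symm.trans hTu
      -- apply `X`
      have h6 : (X ^ (p - 1)) (Xi 1 (Xi 2 u)) = X u := by
        rw [show p - 1 = p - 2 + 1 by omega, pow_succ', endo_mul_apply, h5]
      have h7 : Xi 1 ((X ^ (p - 1)) (Xi 2 u)) = X u := by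
        rw [← h6]
        exact DFunLike.congr_fun ((hcomm0 1 (by omega)).pow_right (p - 1)).eq _
      rwa [hu.2] at h7
    have htriv := fix_all_of_central hK (tw σ α (a ^ 1)) E' hinv1 hx (fun l u hu => by
      show Xi 1 _ = _
      rw [hE'1 _ (hinv1 l u hu)]
      show _ = tw σ α (a ^ 1) l (Xi 1 u)
      rw [hE'1 u hu, ← hX0]
      exact hcommK 0 (by omega) 1 (by omega) (by omega) l u)
    have hXv : X v = v := by
      rw [← hE'1 v hvE']; exact htriv x v hvE'
    have h8 := hsplit v hv
    rw [hTv] at h8
    have h9 : (X ^ (p - 1)) (Xi 2 v) = Xi 2 v := by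
      have : X (Xi 2 v) = Xi 2 v := by
        rw [← endo_mul_apply, ← (hcomm0 2 (by omega)).eq, endo_mul_apply, hXv]
      exact endo_pow_fix this _
    rw [hXv, ← h9, ← h8]
  -- copy 2 agrees with `X` on all of `E`
  have hE2 : ∀ v ∈ E, Xi 2 v = X v := by
    intro v hv
    obtain ⟨w, hw⟩ := he2 v
    have hev : e v ∈ E := by
      intro i hi h
      show (Xi i * e) v = (X * e) v
      rw [(he3 _ (hXT i hi)).eq, (he3 _ (hX0 ▸ hXT 0 (by omega))).eq, endo_mul_apply,
        endo_mul_apply, hv i hi h]
    calc Xi 2 v = Xi 2 (T w - w) + Xi 2 (e v) := by rw [← map_add, ← hw, sub_add_cancel]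
      _ = X (T w - w) + X (e v) := by rw [hW w 2 (by omega), hEfix _ hev (he1 v)]
      _ = X v := by rw [← map_add, ← hw, sub_add_cancel]
  have htriv := fix_all_of_central hK (tw σ α (a ^ 2)) E hEinv hx (fun l u hu => by
    show Xi 2 _ = _
    rw [hE2 _ (hEinv l u hu), hXK2]
    exact congrArg _ (hE2 u hu).symm)
  -- hence `T = 1`
  have hT1 : ∀ v, T v = v := by
    intro v
    have hmem : T v - v ∈ E := fun i hi _ => hW v i hi
    have h1 : X (T v - v) = T v - v := by rw [← hE2 _ hmem]; exact htriv x _ hmem
    refine eq_of_coprime_pow hV hTm hxp ?_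
    rw [hTprod _ (fun i hi => hW v i hi)]
    exact endo_pow_fix h1 p
  refine hx (mem_center_of_image_central hK σ hnt fun l => ?_)
  -- `X` is inverse to the product of the others
  have key : ∀ n, 1 ≤ n → n ≤ p → ∃ S, orb σ α a n x = X * S ∧ Commute S (σ l) ∧ Commute S X := by
    intro n h1 hn
    induction n, h1 using Nat.le_induction with
    | base => exact ⟨1, by simp [orb, tw_one, hX], Commute.one_left _, Commute.one_left _⟩
    | succ n h1 ih =>
      obtain ⟨S, hS, hS1, hS2⟩ := ih (by omega)
      refine ⟨S * Xi n, ?_, hS1.mul_left ?_, hS2.mul_left (hcomm0 n (by omega))⟩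
      · show orb σ α a n x * Xi n = _
        rw [hS, mul_assoc]
      · have := hO n (by omega) 0 (by omega) (by omega) x l
        rwa [pow_zero, tw_one] at this
  obtain ⟨S, hS, hS1, hS2⟩ := key p (by omega) le_rfl
  have hXS : X * S = 1 := by rw [← hS]; exact AddMonoidHom.ext hT1
  have hSX : S * X = 1 := hS2.eq.trans hXS
  calc X * σ l = X * σ l * (S * X) := by rw [hSX, mul_one]
    _ = X * (S * σ l) * X := by rw [hS1.eq]; simp only [mul_assoc]
    _ = σ l * X := by rw [← mul_assoc X, hXS, one_mul]

end Cfsg.Agent.LocEven.Chermak
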