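import Cfsg.Agent.LocEven.Chermak.Two
import Cfsg.Agent.LocEven.Chermak.Odd

/-!
Four commuting copies of a quasisimple group cannot be permuted by a quadratic four-group.
-/

set_option autoImplicit false

namespace Cfsg.Agent.LocEven.Chermak

open Cfsg

variable {W : Type*} [AddCommGroup W] {K A : Type*} [Group K] [CommGroup A]
variable {σ : K →* AddMonoid.End W} {α : A →* AddMonoid.End W}

/-- Splitting along `σ x · (tw a x)`. -/
theorem split_two (hW : ∀ w : W, 2 • w = 0) {a : A} (ha2 : a * a = 1) (ha : Moves σ α a)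
    (hfix : ∀ k v, σ k (tw σ α a k (α a v - v)) = α a v - v) {x : K} (hxo : Odd (orderOf x))
    (hfpf : ∀ w, σ x w = w → w = 0) :
    (∃ e : AddMonoid.End W, (∀ v, σ x (tw σ α a x (e v)) = e v) ∧
      (∀ v, tw σ α a x (v - e v) = σ x (v - e v)) ∧
      (∀ g, Commute g (σ x) → Commute g (tw σ α a x) → Commute g e)) ∧
    ∀ v, tw σ α a x v = σ x v → α a v = v := by
  haveI : Fact (Nat.Prime 2) := ⟨Nat.prime_two⟩
  have hTm : (σ x * tw σ α a x) ^ orderOf x = 1 := by
    rw [(ha x x).mul_pow, image_pow_order σ x, image_pow_order (tw σ α a) x, one_mul]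
  obtain ⟨e, he1, he2, he3⟩ := exists_proj hW hTm (Nat.coprime_two_right.mpr hxo)
  have hplus : ∀ v, tw σ α a x (v - e v) = σ x (v - e v) := by
    intro v
    obtain ⟨u, hu⟩ := he2 v
    rw [hu]
    exact tw_eq_on ha2 ha hfix x u
  refine ⟨⟨e, he1, hplus, fun g h1 h2 => he3 g (h1.mul_right h2)⟩, fun v hv => ?_⟩
  -- the fixed part of `v` is zero
  have hcX : Commute (σ x) e := he3 _ ((Commute.refl _).mul_right (ha x x))
  have hcY : Commute (tw σ α a x) e := he3 _ ((ha x x).symm.mul_right (Commute.refl _))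
  have hev : tw σ α a x (e v) = σ x (e v) := by
    rw [← endo_mul_apply, hcY.eq, endo_mul_apply, hv, ← endo_mul_apply, ← hcX.eq, endo_mul_apply]
  have h1 : σ x (σ x (e v)) = e v := by rw [← hev]; exact he1 v
  have h2 : σ x (e v) = e v := by
    obtain ⟨n, hn⟩ := hxo
    have h3 := endo_pow_fix (f := σ x * σ x) (v := e v) h1 (n + 1)
    rw [← pow_two, ← pow_mul, show 2 * (n + 1) = orderOf x + 1 by omega, pow_succ, image_pow_order,
      one_mul] at h3
    exact h3
  have h0 : e v = 0 := hfpf _ h2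
  obtain ⟨u, hu⟩ := he2 v
  rw [h0, sub_zero] at hu
  rw [hu]
  exact a_fixes_twoProd ha2 ha hfix x u

/-- Four copies give a contradiction. -/
theorem not_four [Finite K] (hK : IsQuasisimple K) (hW : ∀ w : W, 2 • w = 0) {a c : A}
    (ha2 : a * a = 1) (hc2 : c * c = 1) (ha : Moves σ α a) (hc : Moves σ α c)
    (hd : Moves σ α (a * c))
    (hfa : ∀ k v, σ k (tw σ α a k (α a v - v)) = α a v - v)
    (hfc : ∀ k v, σ k (tw σ α c k (α c v - v)) = α c v - v)
    (hfd : ∀ k v, σ k (tw σ α (a * c) k (α (a * c) v - v)) = α (a * c) v - v)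
    (hfpf : ∀ x : K, x ∉ Subgroup.center K → Odd (orderOf x) → ∀ w, σ x w = w → w = 0)
    (hnt : ∃ k, σ k ≠ 1) : False := by
  haveI : Fact (Nat.Prime 2) := ⟨Nat.prime_two⟩
  obtain ⟨x, hx, hxo'⟩ := exists_noncentral_coprime hK 2
  have hxo : Odd (orderOf x) := Nat.coprime_two_right.mp hxo'
  have hd2 : (a * c) * (a * c) = 1 := by rw [mul_mul_mul_comm, ha2, hc2, mul_one]
  obtain ⟨⟨ea, hea1, hea2, hea3⟩, hafix⟩ := split_two hW ha2 ha hfa hxo (hfpf x hx hxo)
  obtain ⟨-, hcfix⟩ := split_two hW hc2 hc hfc hxo (hfpf x hx hxo)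
  obtain ⟨⟨ed, hed1, hed2, hed3⟩, hdfix⟩ := split_two hW hd2 hd hfd hxo (hfpf x hx hxo)
  set X := σ x with hX
  have hback : ∀ e : A, e * e = 1 → ∀ b k v,
      tw σ α (e * b) k v = α e (tw σ α b k (α e v)) := by
    intro e he b k v
    rw [tw_mul, inv_eq_of_mul_eq_one_right he]
    rfl
  -- commutation of the copies
  have m_ac : ∀ k l, Commute (tw σ α a k) (tw σ α c l) := Moves.commute (by
    rw [inv_eq_of_mul_eq_one_right ha2]; exact hd)
  have m_dc : ∀ k l, Commute (tw σ α (a * c) k) (tw σ α c l) := Moves.commute (by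
    rw [inv_eq_of_mul_eq_one_right hd2, mul_assoc, hc2, mul_one]; exact ha)
  have m_da : ∀ k l, Commute (tw σ α (a * c) k) (tw σ α a l) := Moves.commute (by
    rw [inv_eq_of_mul_eq_one_right hd2, mul_right_comm, ha2, one_mul]; exact hc)
  have sq_fix : ∀ v, X (X v) = v → v = 0 := by
    intro v h
    obtain ⟨n, hn⟩ := hxo
    have h3 := endo_pow_fix (f := X * X) (v := v) h (n + 1)
    rw [← pow_two, ← pow_mul, show 2 * (n + 1) = orderOf x + 1 by omega, pow_succ, hX,
      image_pow_order, one_mul] at h3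
    exact hfpf x hx ⟨n, hn⟩ v h3
  -- the three rules
  have rule_a : ∀ v, tw σ α a x v = X v → tw σ α (a * c) x v = tw σ α c x v := by
    intro v hv
    rw [hback a ha2, hafix v hv, hafix]
    rw [← endo_mul_apply, (m_ac x x).eq, endo_mul_apply, hv, ← endo_mul_apply, ← (hc x x).eq]
    rfl
  have rule_d : ∀ v, tw σ α (a * c) x v = X v → tw σ α c x v = tw σ α a x v := by
    intro v hv
    have e : tw σ α c x v = tw σ α ((a * c) * a) x v := by rw [mul_right_comm, ha2, one_mul]
    rw [e, hback _ hd2, hdfix v hv, hdfix]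
    rw [← endo_mul_apply, (m_da x x).eq, endo_mul_apply, hv, ← endo_mul_apply, ← (ha x x).eq]
    rfl
  have rule_m : ∀ v, X (tw σ α a x v) = v → X (tw σ α c x v) = v →
      X (tw σ α (a * c) x v) = v → v = 0 := by
    intro v h1 h2 h3
    have hcc : ∀ u, α c (α c u) = u := fun u => by
      rw [← endo_mul_apply, ← map_mul, hc2, map_one]; rfl
    have hinj : Function.Injective X := fun u u' h => by
      have := congrArg (σ x⁻¹) h
      rwa [← endo_mul_apply, ← endo_mul_apply, hX, ← map_mul, inv_mul_cancel, map_one] at this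
    have key : ∀ u, X (tw σ α c x u) = u → X (tw σ α (a * c) x u) = u → α a u = u := by
      intro u hu2 hu3
      have e1 : tw σ α a x (α c u) = α c (tw σ α (a * c) x u) := by
        have := hback c hc2 (c * a) x (α c u)
        rw [← mul_assoc, hc2, one_mul, hcc, mul_comm c a] at this
        exact this
      have e2 : X (α c u) = α c (tw σ α c x u) := by
        have := hback c hc2 c x (α c u)
        rw [hc2, tw_one, hcc] at this
        exact this
      have h4 : α a (α c u) = α c u := hafix _ (by rw [e1, e2, hinj (hu3.trans hu2.symm)])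
      have h := congrArg (α c) h4
      rw [← endo_mul_apply (α a), alpha_comm a c, endo_mul_apply, hcc, hcc] at h
      exact h
    have hXv : ∀ b, Moves σ α b → X (tw σ α b x v) = v → X (tw σ α b x (X v)) = X v := by
      intro b hb h
      rw [← endo_mul_apply (tw σ α b x) X, ← (hb x x).eq, endo_mul_apply, h]
    have h5 : α a v = v := key v h2 h3
    have h6 : α a (X v) = X v := key _ (hXv c hc h2) (hXv _ hd h3)
    have h7 : tw σ α a x v = X v := by
      have := hback a ha2 1 x v
      rw [mul_one, tw_one, h5] at this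
      rw [this]; exact h6
    exact sq_fix v (by rw [← h7]; exact h1)
  -- on each piece the copy at `c` is central
  have piece : ∀ (P : AddSubgroup W), (∀ k, ∀ v ∈ P, tw σ α c k v ∈ P) →
      ((∀ v ∈ P, tw σ α c x v = X v) ∨ (∀ v ∈ P, X (tw σ α c x v) = v)) → P = ⊥ := by
    intro P hP hor
    have hXc : ∀ l u, X (tw σ α c l u) = tw σ α c l (X u) := fun l u => by
      rw [← endo_mul_apply, (hc x l).eq]; rfl
    have htriv : ∀ k, ∀ v ∈ P, tw σ α c k v = v := by
      refine fix_all_of_central hK (tw σ α c) P hP hx fun l u hu => ?_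
      rcases hor with h | h
      · rw [h _ (hP l u hu), h u hu, hXc]
      · have hinj : Function.Injective X := fun u u' h => by
          have := congrArg (σ x⁻¹) h
          rwa [← endo_mul_apply, ← endo_mul_apply, hX, ← map_mul, inv_mul_cancel, map_one] at this
        exact hinj (by rw [h _ (hP l u hu), hXc, h u hu])
    rw [AddSubgroup.eq_bot_iff_forall]
    intro v hv
    refine hfpf x hx hxo v ?_
    rcases hor with h | h
    · exact ((h v hv).symm.trans (htriv x v hv))
    · have := h v hv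
      rwa [htriv x v hv] at this
  -- pieces
  have mkP : ∀ (f g : AddMonoid.End W), (∀ k, Commute f (tw σ α c k)) → (∀ k, Commute g (tw σ α c k)) →
      ∀ k, ∀ v ∈ fix {f} ⊓ fix {g}, tw σ α c k v ∈ fix {f} ⊓ fix {g} := fun f g hf hg k v hv =>
    ⟨fix_mem_of_commute (fun h hh => by rw [Set.mem_singleton_iff.mp hh]; exact hf k) hv.1,
      fix_mem_of_commute (fun h hh => by rw [Set.mem_singleton_iff.mp hh]; exact hg k) hv.2⟩
  -- endomorphisms whose fixed points are the pieces
  have hXinv : σ x⁻¹ * X = 1 := by rw [hX, ← map_mul, inv_mul_cancel, map_one]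
  set Ya := tw σ α a x with hYa
  set Ud := tw σ α (a * c) x with hUd
  have hXic : ∀ k, Commute (σ x⁻¹) (tw σ α c k) := fun k => hc x⁻¹ k
  have hXc' : ∀ k, Commute X (tw σ α c k) := fun k => hc x k
  have iff_plus : ∀ (Y : AddMonoid.End W) v, (σ x⁻¹ * Y) v = v ↔ Y v = X v := by
    intro Y v
    constructor
    · intro h
      conv_rhs => rw [← h, endo_mul_apply, ← endo_mul_apply X, hX, ← map_mul, mul_inv_cancel, map_one]
      rfl
    · intro h
      rw [endo_mul_apply, h, ← endo_mul_apply, hXinv]; rfl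
  have hfix1 : ∀ (f : AddMonoid.End W) v, v ∈ fix {f} ↔ f v = v := fun f v => by simp [mem_fix]
  have P1 : fix {σ x⁻¹ * Ya} ⊓ fix {σ x⁻¹ * Ud} = (⊥ : AddSubgroup W) :=
    piece _ (mkP _ _ (fun k => (hXic k).mul_left (m_ac x k)) (fun k => (hXic k).mul_left (m_dc x k)))
      (Or.inl fun v hv => by
        obtain ⟨h1, h2⟩ := hv
        replace h1 := (iff_plus _ _).mp ((hfix1 _ _).mp h1)
        replace h2 := (iff_plus _ _).mp ((hfix1 _ _).mp h2)
        rw [← rule_a v h1]; exact h2)
  have P2 : fix {σ x⁻¹ * Ya} ⊓ fix {X * Ud} = (⊥ : AddSubgroup W) :=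
    piece _ (mkP _ _ (fun k => (hXic k).mul_left (m_ac x k)) (fun k => (hXc' k).mul_left (m_dc x k)))
      (Or.inr fun v hv => by
        obtain ⟨h1, h2⟩ := hv
        replace h1 := (iff_plus _ _).mp ((hfix1 _ _).mp h1)
        replace h2 := (hfix1 _ _).mp h2
        rw [← rule_a v h1]; exact h2)
  have P3 : fix {X * Ya} ⊓ fix {σ x⁻¹ * Ud} = (⊥ : AddSubgroup W) :=
    piece _ (mkP _ _ (fun k => (hXc' k).mul_left (m_ac x k)) (fun k => (hXic k).mul_left (m_dc x k)))
      (Or.inr fun v hv => by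
        obtain ⟨h1, h2⟩ := hv
        replace h1 := (hfix1 _ _).mp h1
        replace h2 := (iff_plus _ _).mp ((hfix1 _ _).mp h2)
        rw [rule_d v h2]; exact h1)
  have P4 : fix {X * Ya} ⊓ fix {X * Ud} = (⊥ : AddSubgroup W) := by
    refine piece _ (mkP _ _ (fun k => (hXc' k).mul_left (m_ac x k))
      (fun k => (hXc' k).mul_left (m_dc x k))) (Or.inl fun v hv => ?_)
    obtain ⟨h1, h2⟩ := hv
    replace h1 := (hfix1 _ _).mp h1
    replace h2 := (hfix1 _ _).mp h2
    -- split along `X · tw c x`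
    obtain ⟨⟨ec, hec1, hec2, hec3⟩, -⟩ := split_two hW hc2 hc hfc hxo (hfpf x hx hxo)
    have cYa : Commute Ya ec := hec3 Ya (ha x x).symm (m_ac x x)
    have cUd : Commute Ud ec := hec3 Ud (hd x x).symm (m_dc x x)
    have cX : Commute X ec := hec3 X (Commute.refl _) (hc x x)
    have h0 : ec v = 0 := rule_m _
      (by show (X * Ya * ec) v = ec v; rw [(cX.mul_left cYa).eq, endo_mul_apply]; exact congrArg ec h1)
      (hec1 v)
      (by show (X * Ud * ec) v = ec v; rw [(cX.mul_left cUd).eq, endo_mul_apply]; exact congrArg ec h2)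
    have := hec2 v
    rwa [h0, sub_zero] at this
  -- every vector splits into the pieces
  have cea : Commute X ea := hea3 X (Commute.refl _) (ha x x)
  have caY : Commute Ya ea := hea3 Ya (ha x x).symm (Commute.refl _)
  have caU : Commute Ud ea := hea3 Ud (hd x x).symm (m_da x x)
  have cdX : Commute X ed := hed3 X (Commute.refl _) (hd x x)
  have cdY : Commute Ya ed := hed3 Ya (ha x x).symm (m_da x x).symm
  have hzero : ∀ v : W, v = 0 := by
    have plus : ∀ v, Ya v = X v → v = 0 := by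
      intro v hv
      have h1 : ed v ∈ fix {σ x⁻¹ * Ya} ⊓ fix {X * Ud} := by
        refine ⟨(hfix1 _ _).mpr ((iff_plus _ _).mpr ?_), (hfix1 _ _).mpr (hed1 v)⟩
        rw [← endo_mul_apply, cdY.eq, endo_mul_apply, hv, ← endo_mul_apply, ← cdX.eq]; rfl
      rw [P2, AddSubgroup.mem_bot] at h1
      have h2 : v ∈ fix {σ x⁻¹ * Ya} ⊓ fix {σ x⁻¹ * Ud} := by
        refine ⟨(hfix1 _ _).mpr ((iff_plus _ _).mpr hv), (hfix1 _ _).mpr ((iff_plus _ _).mpr ?_)⟩
        have := hed2 v
        rwa [h1, sub_zero] at this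
      rwa [P1, AddSubgroup.mem_bot] at h2
    have minus : ∀ v, X (Ya v) = v → v = 0 := by
      intro v hv
      have h1 : ed v ∈ fix {X * Ya} ⊓ fix {X * Ud} := by
        refine ⟨(hfix1 _ _).mpr ?_, (hfix1 _ _).mpr (hed1 v)⟩
        rw [← endo_mul_apply, (cdX.mul_left cdY).eq, endo_mul_apply]
        exact congrArg ed hv
      rw [P4, AddSubgroup.mem_bot] at h1
      have h2 : v ∈ fix {X * Ya} ⊓ fix {σ x⁻¹ * Ud} := by
        refine ⟨(hfix1 _ _).mpr hv, (hfix1 _ _).mpr ((iff_plus _ _).mpr ?_)⟩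
        have := hed2 v
        rwa [h1, sub_zero] at this
      rwa [P3, AddSubgroup.mem_bot] at h2
    intro v
    calc v = (v - ea v) + ea v := (sub_add_cancel _ _).symm
      _ = 0 := by rw [plus _ (hea2 v), minus _ (hea1 v), add_zero]
  obtain ⟨k, hk⟩ := hnt
  exact hk (AddMonoidHom.ext fun v => (hzero _).trans (hzero _).symm)

end Cfsg.Agent.LocEven.Chermak
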