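import Cfsg.Agent.LocEven.Chermak.Bound
import Cfsg.Agent.LocEven.Chermak.Four

/-!
Chermak's theorem: best offenders normalize quasisimple groups that they permute.
-/

set_option autoImplicit false

namespace Cfsg.Agent.LocEven.Chermak

open Cfsg

universe u

variable {V : Type*} [AddCommGroup V] {K A : Type*} [Group K] [CommGroup A]
variable {σ : K →* AddMonoid.End V} {α : A →* AddMonoid.End V}

theorem card_quotient_mul (U : AddSubgroup V) :
    Nat.card V = Nat.card (V ⧸ U) * Nat.card U :=
  AddSubgroup.card_eq_card_quotient_mul_card_addSubgroup U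

/-- Best offenders restrict to invariant subgroups. -/
theorem best_restr [Finite V] (hbest : ∀ B, wt α B ≤ wt α ⊤) (U : AddSubgroup V)
    (hU : ∀ a, ∀ u ∈ U, α a u ∈ U) (B : Subgroup A) :
    wt (restr α U hU) B ≤ wt (restr α U hU) ⊤ := by
  have e : ∀ D : Subgroup A, Nat.card (fixA (restr α U hU) D) =
      Nat.card (U ⊓ fixA α D : AddSubgroup V) := by
    intro D
    refine Nat.card_congr
      { toFun := fun u => ⟨((u : U) : V), (u : U).2, mem_fixA.mpr fun b hb =>
          congrArg Subtype.val (mem_fixA.mp u.2 b hb)⟩
        invFun := fun v => ⟨⟨v, v.2.1⟩, mem_fixA.mpr fun b hb => Subtype.ext (mem_fixA.mp v.2.2 b hb)⟩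
        left_inv := fun u => rfl
        right_inv := fun v => rfl }
  unfold wt
  rw [e, e]
  have h1 := card_add_mul_le (U ⊓ fixA α B) (fixA α ⊤)
  have h2 : (U ⊓ fixA α B) ⊔ fixA α ⊤ ≤ fixA α B := sup_le inf_le_right (fixA_anti le_top)
  have h3 : (U ⊓ fixA α B) ⊓ fixA α ⊤ ≤ U ⊓ fixA α ⊤ := inf_le_inf_right _ inf_le_left
  refine Nat.le_of_mul_le_mul_right ?_ (Nat.card_pos (α := fixA α ⊤))
  calc Nat.card B * Nat.card (U ⊓ fixA α B : AddSubgroup V) * Nat.card (fixA α ⊤)
      ≤ Nat.card B * (Nat.card (fixA α B) * Nat.card (U ⊓ fixA α ⊤ : AddSubgroup V)) := by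
        rw [mul_assoc]
        exact Nat.mul_le_mul_left _ (h1.trans
          (Nat.mul_le_mul (AddSubgroup.card_le_of_le h2) (AddSubgroup.card_le_of_le h3)))
    _ = wt α B * Nat.card (U ⊓ fixA α ⊤ : AddSubgroup V) := by unfold wt; ring
    _ ≤ wt α ⊤ * Nat.card (U ⊓ fixA α ⊤ : AddSubgroup V) := Nat.mul_le_mul_right _ (hbest B)
    _ = _ := by unfold wt; ring

/-- The offender inequality against the kernel. -/
theorem card_le_index_mul [Finite V] [Finite A] {B : Subgroup A} (hle : ∀ D ≤ B, wt α D ≤ wt α B) :
    Nat.card V ≤ (actKer (α.comp B.subtype)).index * Nat.card (fixA α B) := by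
  set k := actKer (α.comp B.subtype) with hk
  have h1 := hle (k.map B.subtype) (Subgroup.map_subtype_le _)
  have h2 : fixA α (k.map B.subtype) = ⊤ := by
    refine eq_top_iff.mpr fun v _ => mem_fixA.mpr ?_
    rintro _ ⟨b, hb, rfl⟩
    exact DFunLike.congr_fun (mem_actKer.mp hb) v
  unfold wt at h1
  rw [h2, AddSubgroup.card_top, Subgroup.card_map_of_injective B.subtype_injective,
    ← Subgroup.card_mul_index k, mul_assoc] at h1
  exact Nat.le_of_mul_le_mul_left h1 Nat.card_pos

/-- A trivial action on the fixed points of a commuting unipotent element is trivial. -/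
theorem trivial_of_trivial_on_fix {p : ℕ} [hp : Fact p.Prime] (hV : ∀ v : V, p • v = 0)
    (hK : IsQuasisimple K) {c : AddMonoid.End V} (hc : c ^ p = 1) (hcomm : ∀ k, Commute c (σ k))
    (h : ∀ v, c v = v → ∀ k, σ k v = v) (k : K) : σ k = 1 := by
  have hnil : (c - 1) ^ p = 0 := by
    obtain ⟨r, hr⟩ := (Commute.one_right (c - 1)).exists_add_pow_prime_eq hp.out
    rw [sub_add_cancel, hc, one_pow, mul_one] at hr
    have h0 : ∀ z : AddMonoid.End V, (p : AddMonoid.End V) * z = 0 := fun z => by
      rw [← nsmul_eq_mul]; exact AddMonoidHom.ext fun v => hV (z v)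
    rw [mul_assoc ((p : AddMonoid.End V)), h0, add_zero] at hr
    exact (add_eq_right.mp hr.symm)
  have hstep : ∀ (n : ℕ) (v : V), ((c - 1) ^ n : AddMonoid.End V) v = 0 → ∀ k, σ k v = v := by
    intro n
    induction n with
    | zero =>
      intro v hv k
      rw [show v = 0 from hv, map_zero]
    | succ n ih =>
      intro v hv k
      rw [pow_succ, endo_mul_apply] at hv
      have h1 := ih _ hv
      have hδ : ∀ k, c (σ k v - v) = σ k v - v := by
        intro k
        have h2 : σ k (c v - v) = c v - v := h1 k
        rw [map_sub] at h2 ⊢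
        rw [← endo_mul_apply, (hcomm k).eq, endo_mul_apply]
        calc σ k (c v) - c v = (σ k (c v) - σ k v) + σ k v - c v := by abel
          _ = _ := by rw [h2]; abel
      let δ : K →* Multiplicative V :=
        { toFun := fun k => Multiplicative.ofAdd (σ k v - v)
          map_one' := by rw [map_one]; exact congrArg Multiplicative.ofAdd (sub_self v)
          map_mul' := fun a b => by
            show Multiplicative.ofAdd (σ (a * b) v - v) = _
            rw [← ofAdd_add]
            congr 1
            have h3 := h _ (hδ b) a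
            rw [map_sub] at h3
            rw [map_mul, endo_mul_apply]
            calc σ a (σ b v) - v = (σ a (σ b v) - σ a v) + (σ a v - v) := by abel
              _ = _ := by rw [h3]; abel }
      have := hom_trivial_of_comm hK δ (fun a b => mul_comm _ _) k
      exact sub_eq_zero.mp (congrArg Multiplicative.toAdd this)
  exact AddMonoidHom.ext fun v => hstep p v (by rw [hnil]; rfl) k

/-- For `p = 2`: a second moving element fixing `[V,a]` makes the orbit product fix it. -/
theorem twoProd_fixes_of_moves (hK : IsQuasisimple K) {a c : A} (ha2 : a * a = 1) (hc2 : c * c = 1)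
    (ha : Moves σ α a) (hc : Moves σ α c) (hd : Moves σ α (c * a))
    (hfix : ∀ v, α c (α a v - v) = α a v - v) :
    ∀ k v, σ k (tw σ α a k (α a v - v)) = α a v - v := by
  have hO : OrbComm σ α a 2 := by
    intro i hi j hj hij k l
    rcases i with _ | _ | i
    · rcases j with _ | _ | j
      · exact absurd rfl hij
      · rw [pow_zero, tw_one, pow_one]; exact ha k l
      · omega
    · rcases j with _ | _ | j
      · rw [pow_zero, tw_one, pow_one]; exact (ha l k).symm
      · exact absurd rfl hij
      · omega
    · omega
  have han : a ^ 2 = 1 := by rw [pow_two]; exact ha2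
  have hm : ∀ e f : A, Moves σ α (e⁻¹ * f) → ∀ k l, Commute (tw σ α e k) (tw σ α f l) :=
    fun e f h => Moves.commute h
  have hD : ∀ k, orb σ α a 2 k = σ k * tw σ α a k := fun k => orb_two a k
  let R : AddSubgroup V := (AddMonoidHom.mk' (fun v => α a v - v)
    (fun u v => by rw [map_add]; abel) : V →+ V).range
  have hR : ∀ k, ∀ r ∈ R, orbHom hO k r ∈ R := by
    rintro k _ ⟨v, rfl⟩
    refine ⟨orb σ α a 2 k v, ?_⟩
    show α a (orb σ α a 2 k v) - orb σ α a 2 k v = orb σ α a 2 k (α a v - v)
    rw [map_sub, ← endo_mul_apply, (orb_commute_self han hO k).eq, endo_mul_apply]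
  have hcR : ∀ r ∈ R, α c r = r := by
    rintro _ ⟨v, rfl⟩
    exact hfix v
  have hcc : c⁻¹ = c := inv_eq_of_mul_eq_one_right hc2
  have haa : a⁻¹ = a := inv_eq_of_mul_eq_one_right ha2
  have key : ∀ k l, ∀ r ∈ R, orbHom hO k (orbHom hO l r) = orbHom hO l (orbHom hO k r) := by
    intro k l r hr
    set D' := tw σ α c l * tw σ α (c * a) l with hD'
    have hsame : ∀ r ∈ R, orbHom hO l r = D' r := by
      intro r hr
      have e : D' = α c * orb σ α a 2 l * α c := by
        rw [hD', hD, tw_mul, tw_apply, hcc]
        calc α c * σ l * α c * (α c * tw σ α a l * α c)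
            = α c * σ l * (α c * α c) * tw σ α a l * α c := by simp only [mul_assoc]
          _ = _ := by rw [← map_mul α, hc2, map_one, mul_one]; simp only [mul_assoc]
      rw [e]
      show orb σ α a 2 l r = α c (orb σ α a 2 l (α c r))
      rw [hcR r hr]
      exact (hcR _ (hR l r hr)).symm
    have hcomm : Commute (orbHom hO k) D' := by
      rw [orbHom_apply, hD, hD']
      refine Commute.mul_left ?_ ?_
      · exact (hc k l).mul_right (hd k l)
      · refine (hm a c ?_ k l).mul_right (hm a (c * a) ?_ k l)
        · rw [haa, mul_comm]; exact hd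
        · rw [haa, mul_left_comm, ha2, mul_one]; exact hc
    rw [hsame r hr, hsame _ (hR k r hr), ← endo_mul_apply, hcomm.eq]
    rfl
  intro k v
  have h1 := hom_trivial_of_comm hK (restr (orbHom hO) R hR)
    (fun x y => AddMonoidHom.ext fun r => Subtype.ext (key x y r r.2)) k
  have h2 := congrArg Subtype.val
    (DFunLike.congr_fun h1 (⟨α a v - v, v, rfl⟩ : R))
  rw [restr_apply, orbHom_apply, hD] at h2
  exact h2

theorem tw_quot (U : AddSubgroup V) (hσ : ∀ k, ∀ u ∈ U, σ k u ∈ U)
    (hα : ∀ a, ∀ u ∈ U, α a u ∈ U) (a : A) (k : K) (v : V) :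
    tw (quot σ U hσ) (quot α U hα) a k (v : V ⧸ U) = ((tw σ α a k v : V) : V ⧸ U) := rfl

/-- The quadratic case and the normalizing case, after all fixing data is known. -/
theorem final_count [Finite V] [Finite A] [Finite K] (hV : ∀ v : V, 2 • v = 0)
    (hA : ∀ c : A, c * c = 1) (hK : IsQuasisimple K) (hnt : ∃ k, σ k ≠ 1)
    (hH : ∀ c, Norm σ α c ∨ Moves σ α c)
    (hnc : ∀ c, α c ≠ 1 → Norm σ α c → ∃ k, tw σ α c k ≠ σ k)
    {a : A} (ha : Moves σ α a)
    (hfixes : ∀ c, Moves σ α c → ∀ k v, σ k (tw σ α c k (α c v - v)) = α c v - v)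
    (B : Subgroup A) (hBN : ∀ b ∈ B, Norm σ α b)
    (hquad : ∀ b ∈ B, ∀ c ∈ B, ∀ v, α c (α b v - v) = α b v - v)
    {b0 : A} (hb0 : b0 ∈ B) (hb0' : α b0 ≠ 1)
    (hsmall : Nat.card V ≤ 2 * (actKer (α.comp B.subtype)).index * Nat.card (fixA α B)) :
    False := by
  haveI : Fact (Nat.Prime 2) := ⟨Nat.prime_two⟩
  set C0 := fix (Set.range σ) with hC0
  have hσC : ∀ k, ∀ u ∈ C0, σ k u ∈ C0 := fun k u hu => by rw [mem_fix_range.mp hu k]; exact hu
  have hαC : ∀ c, ∀ u ∈ C0, α c u ∈ C0 := by
    intro c u hu
    have h := alpha_mem_fix_tw (σ := σ) (α := α) (a := c) hu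
    rcases hH c with hc | hc
    · rw [mem_fix_range] at h ⊢
      intro k
      obtain ⟨l, hl⟩ := hc.inv k
      have := h l
      rwa [tw_apply c l, ← hl, ← tw_mul, mul_inv_cancel, tw_one] at this
    · obtain ⟨x, hx, hxo⟩ := exists_noncentral_coprime hK 2
      rw [hC0, (fix_facts hV hK (hA c) hc (hfixes c hc) hx (Nat.coprime_two_right.mp hxo)).2]
      exact h
  let W := V ⧸ C0
  set σW := quot σ C0 hσC with hσW
  set αW := quot α C0 hαC with hαW
  have hWtwo : ∀ w : W, 2 • w = 0 := fun w => by
    induction w using QuotientAddGroup.induction_on with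
    | H v => rw [← QuotientAddGroup.mk_nsmul, hV, QuotientAddGroup.mk_zero]
  have hfpf : ∀ x : K, x ∉ Subgroup.center K → Odd (orderOf x) → ∀ w : W, σW x w = w → w = 0 := by
    intro x hx hxo w hw
    induction w using QuotientAddGroup.induction_on with
    | H v =>
      rw [hσW, quot_mk, QuotientAddGroup.eq_iff_sub_mem] at hw
      rw [QuotientAddGroup.eq_zero_iff]
      have h1 := eq_of_coprime_pow hV (image_pow_order σ x) (Nat.coprime_two_right.mpr hxo)
        (mem_fix_range.mp hw x)
      exact (fix_facts hV hK (hA a) ha (hfixes a ha) hx hxo).1 v h1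
  have hntW : ∃ k, σW k ≠ 1 := by
    by_contra hcon
    push Not at hcon
    obtain ⟨k0, hk0⟩ := hnt
    refine hk0 (trivial_of_series hK σ (fun k l v => ?_) k0)
    have h : ((σ k v : V) : W) = (v : W) := DFunLike.congr_fun (hcon k) (v : W)
    rw [QuotientAddGroup.eq_iff_sub_mem] at h
    exact mem_fix_range.mp h l
  have hmoveW : ∀ c, Moves σ α c → Moves σW αW c := fun c hc k l => AddMonoidHom.ext fun w => by
    induction w using QuotientAddGroup.induction_on with
    | H v => exact congrArg (fun z : V => (z : W)) (DFunLike.congr_fun (hc k l).eq v)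
  have hnormW : ∀ c, Norm σ α c → Norm σW αW c := fun c hc k => by
    obtain ⟨l, hl⟩ := hc k
    refine ⟨l, AddMonoidHom.ext fun w => ?_⟩
    induction w using QuotientAddGroup.induction_on with
    | H v => exact congrArg (fun z : V => (z : W)) (DFunLike.congr_fun hl v)
  have hfixW : ∀ c, Moves σ α c → ∀ k (w : W), σW k (tw σW αW c k (αW c w - w)) = αW c w - w := by
    intro c hc k w
    induction w using QuotientAddGroup.induction_on with
    | H v => exact congrArg (fun z : V => (z : W)) (hfixes c hc k v)
  -- nontrivial normalizing elements stay nontrivial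
  have hncW : ∀ c, Norm σ α c → (∀ k, tw σW αW c k = σW k) → α c = 1 := by
    intro c hc h
    by_contra hc1
    obtain ⟨k0, hk0⟩ := hnc c hc1 hc
    refine hk0 (tw_eq_of_mod_center hK (fun k => ?_) k0)
    obtain ⟨l, hl⟩ := hc k
    refine ⟨k⁻¹ * l, ?_, by rw [mul_inv_cancel_left]; exact hl⟩
    refine mem_center_of_image_central hK σW hntW fun m => ?_
    have h1 : σW l = σW k := by
      rw [← h k]
      refine AddMonoidHom.ext fun w => ?_
      induction w using QuotientAddGroup.induction_on with
      | H v => exact (congrArg (fun z : V => (z : W)) (DFunLike.congr_fun hl v)).symm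
    rw [map_mul, h1, ← map_mul, inv_mul_cancel, map_one, one_mul, mul_one]
  set βW := αW.comp B.subtype with hβW
  have hb0W : βW ⟨b0, hb0⟩ ≠ 1 := fun h => hb0' (hncW b0 (hBN b0 hb0) (fun k => by
    rw [tw_apply, show αW b0 = 1 from h, one_mul]
    have : αW b0⁻¹ = 1 := by rw [inv_eq_of_mul_eq_one_right (hA b0)]; exact h
    rw [this, mul_one]))
  have hker : actKer βW = actKer (α.comp B.subtype) := by
    ext b
    rw [mem_actKer, mem_actKer]
    constructor
    · intro h
      refine hncW b (hBN b b.2) (fun k => ?_)
      have h' : αW ((b : A)⁻¹) = 1 := by rw [inv_eq_of_mul_eq_one_right (hA b)]; exact h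
      rw [tw_apply, show αW (b : A) = 1 from h, h', one_mul, mul_one]
    · intro h
      refine AddMonoidHom.ext fun w => ?_
      induction w using QuotientAddGroup.induction_on with
      | H v => exact congrArg (fun z : V => (z : W)) (DFunLike.congr_fun h v)
  obtain ⟨hbound, hWC⟩ := quadratic_bound (σ := σW) (β := βW) hK hWtwo
    (fun b => Subtype.ext (hA b)) (fun b => hnormW b (hBN b b.2))
    (fun b hb => by
      by_contra hcon
      push Not at hcon
      refine hb (AddMonoidHom.ext fun w => ?_)
      have h1 := hncW b (hBN b b.2) hcon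
      induction w using QuotientAddGroup.induction_on with
      | H v => exact congrArg (fun z : V => (z : W)) (DFunLike.congr_fun h1 v))
    hfpf (fun b c w => by
      induction w using QuotientAddGroup.induction_on with
      | H v => exact congrArg (fun z : V => (z : W)) (hquad b b.2 c c.2 v))
    hntW (tw σW αW a) (hmoveW a ha)
    (by
      by_contra hcon
      push Not at hcon
      obtain ⟨k, hk⟩ := hntW
      refine hk ?_
      have h := hcon k
      rw [tw_apply] at h
      calc σW k = αW a⁻¹ * (αW a * σW k * αW a⁻¹) * αW a := by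
            simp only [← mul_assoc]
            rw [alpha_inv_mul, one_mul, mul_assoc, alpha_inv_mul, mul_one]
        _ = 1 := by rw [h, mul_one, alpha_inv_mul])
    hb0W
  set Cw := fixA βW ⊤ with hCw
  have hmap : Nat.card (fixA α B) ≤ Nat.card Cw * Nat.card C0 := by
    rw [← Nat.card_prod]
    refine Nat.card_le_card_of_injective (fun v : fixA α B =>
      ((⟨((v : V) : W), mem_fixA.mpr fun b _ =>
          congrArg (fun z : V => (z : W)) (mem_fixA.mp v.2 b b.2)⟩ : Cw),
        (⟨(v : V) - (((v : V) : W)).out, by
          rw [← QuotientAddGroup.eq_iff_sub_mem, QuotientAddGroup.out_eq']⟩ : C0))) ?_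
    intro u v h
    simp only [Prod.mk.injEq, Subtype.mk.injEq] at h
    rw [h.1] at h
    exact Subtype.ext (sub_left_inj.mp h.2)
  rw [card_quotient_mul C0, hWC, ← hker] at hsmall
  have h1 : Nat.card Cw * Nat.card Cw * Nat.card C0 ≤
      2 * (actKer βW).index * Nat.card Cw * Nat.card C0 := by
    rw [← pow_two]
    refine hsmall.trans ?_
    rw [mul_assoc (2 * _) (Nat.card Cw)]
    exact Nat.mul_le_mul_left _ hmap
  have h2 := Nat.le_of_mul_le_mul_right h1 Nat.card_pos
  have h3 := Nat.le_of_mul_le_mul_right h2 Nat.card_pos
  have hpos : 0 < (actKer βW).index := Nat.pos_of_ne_zero Subgroup.index_ne_zero_of_finite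
  omega

/-- The conclusion we induct on. -/
def Claim (V : Type*) [AddCommGroup V] (K A : Type*) [Group K] [CommGroup A] (p : ℕ) : Prop :=
  ∀ (σ : K →* AddMonoid.End V) (α : A →* AddMonoid.End V), (∃ k, σ k ≠ 1) →
    (∀ v : V, p • v = 0) → (∀ c, Norm σ α c ∨ Moves σ α c) →
    (∀ B, wt α B ≤ wt α ⊤) → ∀ a, ¬ Moves σ α a

/-- Consequence of the induction: normalizing elements are faithful on `K`. -/
theorem noncentralizing [Finite V] [Finite A] [Finite K] {p : ℕ} [hp : Fact p.Prime]
    (hV : ∀ v : V, p • v = 0) (hA : ∀ c : A, c ^ p = 1) (hK : IsQuasisimple K)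
    (hnt : ∃ k, σ k ≠ 1) (hH : ∀ c, Norm σ α c ∨ Moves σ α c)
    (hbest : ∀ B, wt α B ≤ wt α ⊤) {a : A} (ha : Moves σ α a)
    (IH : ∀ U : AddSubgroup V, U ≠ ⊤ → Claim U K A p) :
    ∀ c, α c ≠ 1 → Norm σ α c → ∃ k, tw σ α c k ≠ σ k := by
  intro c hc _
  by_contra hcon
  push Not at hcon
  have hcomm : ∀ k, Commute (α c) (σ k) := fun k => by
    show α c * σ k = σ k * α c
    rw [alpha_tw (σ := σ) c k, hcon]
  set U := fix {α c} with hUdef
  have hUm : ∀ v, v ∈ U ↔ α c v = v := fun v => by simp [hUdef, mem_fix]
  have hUne : U ≠ ⊤ := fun h => hc (AddMonoidHom.ext fun v =>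
    (hUm v).mp (h ▸ AddSubgroup.mem_top v))
  have hσU : ∀ k, ∀ u ∈ U, σ k u ∈ U := fun k u hu => by
    rw [hUm] at hu ⊢
    rw [← endo_mul_apply, (hcomm k).eq, endo_mul_apply, hu]
  have hαU : ∀ b, ∀ u ∈ U, α b u ∈ U := fun b u hu => by
    rw [hUm] at hu ⊢
    rw [← endo_mul_apply, alpha_comm, endo_mul_apply, hu]
  refine IH U hUne (restr σ U hσU) (restr α U hαU) ?_ (fun v => Subtype.ext (hV v)) ?_
    (best_restr hbest U hαU) a ?_
  · by_contra hcon'
    push Not at hcon'
    obtain ⟨k, hk⟩ := hnt
    refine hk (trivial_of_trivial_on_fix hV hK (c := α c) (by rw [← map_pow, hA, map_one]) hcomm ?_ k)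
    intro v hv l
    exact congrArg Subtype.val (DFunLike.congr_fun (hcon' l) (⟨v, (hUm v).mpr hv⟩ : U))
  · intro b
    rcases hH b with hb | hb
    · left
      intro k
      obtain ⟨l, hl⟩ := hb k
      exact ⟨l, AddMonoidHom.ext fun u => Subtype.ext (DFunLike.congr_fun hl (u : V))⟩
    · right
      exact fun k l => AddMonoidHom.ext fun u => Subtype.ext (DFunLike.congr_fun (hb k l).eq (u : V))
  · exact fun k l => AddMonoidHom.ext fun u => Subtype.ext (DFunLike.congr_fun (ha k l).eq (u : V))

/-- The quadratic case for `p = 2`. -/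
theorem not_moves_quadratic [Finite V] [Finite A] [Finite K] (hV : ∀ v : V, 2 • v = 0)
    (hA : ∀ c : A, c * c = 1) (hK : IsQuasisimple K) (hnt : ∃ k, σ k ≠ 1)
    (hH : ∀ c, Norm σ α c ∨ Moves σ α c)
    (hbest : ∀ B, wt α B ≤ wt α ⊤)
    (hnc : ∀ c, α c ≠ 1 → Norm σ α c → ∃ k, tw σ α c k ≠ σ k)
    (hquad : ∀ b c v, α c (α b v - v) = α b v - v) {a : A} (ha : Moves σ α a) : False := by
  haveI : Fact (Nat.Prime 2) := ⟨Nat.prime_two⟩
  have hsmall : Nat.card V ≤ (actKer α).index * Nat.card (fixA α ⊤) := by
    have h1 := hbest (actKer α)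
    have h2 : fixA α (actKer α) = ⊤ := eq_top_iff.mpr fun v _ => mem_fixA.mpr fun b hb =>
      DFunLike.congr_fun (mem_actKer.mp hb) v
    unfold wt at h1
    rw [h2, AddSubgroup.card_top, Subgroup.card_top, ← Subgroup.card_mul_index (actKer α),
      mul_assoc] at h1
    exact Nat.le_of_mul_le_mul_left h1 Nat.card_pos
  have hinv : ∀ c : A, c⁻¹ = c := fun c => inv_eq_of_mul_eq_one_right (hA c)
  let N0 : Subgroup A :=
    { carrier := {c | Norm σ α c}
      one_mem' := norm_one
      mul_mem' := fun hx hy => hx.mul hy
      inv_mem' := fun hx => hx.inv }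
  by_cases htriv : ∀ b ∈ N0, α b = 1
  · -- all nontrivial elements move `K`
    by_cases hall : ∀ c, Moves σ α c → α c = α a
    · -- a transvection
      have hidx : (actKer α).index ≤ 2 := by
        rw [Subgroup.index_eq_card]
        haveI := Fintype.ofFinite (A ⧸ actKer α)
        rw [Nat.card_eq_fintype_card]
        calc Fintype.card (A ⧸ actKer α) ≤ Fintype.card Bool :=
              Fintype.card_le_of_surjective
                (fun t : Bool => if t then ((a : A) : A ⧸ actKer α) else ((1 : A) : A ⧸ actKer α))
                (fun q => by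
                  induction q using QuotientGroup.induction_on with
                  | H c =>
                    rcases hH c with h | h
                    · refine ⟨false, ?_⟩
                      simp only [Bool.false_eq_true, if_false, QuotientGroup.eq, inv_one, one_mul]
                      exact mem_actKer.mpr (htriv c h)
                    · refine ⟨true, ?_⟩
                      simp only [if_true, QuotientGroup.eq]
                      rw [mem_actKer, map_mul, hall c h, ← map_mul, inv_mul_cancel, map_one])
          _ = 2 := rfl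
      have hF : Nat.card (V ⧸ fixA α ⊤) ≤ 2 := by
        have h1 := (card_quotient_mul (fixA α ⊤)).symm.le.trans
          (hsmall.trans (Nat.mul_le_mul_right _ hidx))
        exact Nat.le_of_mul_le_mul_right h1 Nat.card_pos
      obtain ⟨v0, hv0⟩ : ∃ v, α a v - v ≠ 0 := by
        by_contra hcon
        push Not at hcon
        refine Norm.not_moves hK hnt (a := a) (fun k => ⟨k, ?_⟩) ha
        have h1 : α a = 1 := AddMonoidHom.ext fun v => sub_eq_zero.mp (hcon v)
        rw [tw_apply, hinv, h1, one_mul, mul_one]
      refine not_transvection_moves hV hK hnt (hA a) ha (α a v0 - v0) fun v => ?_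
      by_cases hv : v ∈ fixA α ⊤
      · left; rw [mem_fixA.mp hv a (Subgroup.mem_top a), sub_self]
      · right
        have hv0' : v0 ∉ fixA α ⊤ := fun h => hv0 (by
          rw [mem_fixA.mp h a (Subgroup.mem_top a), sub_self])
        have hdiff : v - v0 ∈ fixA α ⊤ := by
          rw [← QuotientAddGroup.eq_iff_sub_mem]
          by_contra hne
          haveI := Fintype.ofFinite (V ⧸ fixA α ⊤)
          rw [Nat.card_eq_fintype_card] at hF
          have h3 : 2 < Fintype.card (V ⧸ fixA α ⊤) :=
            Fintype.two_lt_card_iff.mpr ⟨0, v, v0, fun h => hv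
              ((QuotientAddGroup.eq_zero_iff v).mp h.symm),
              fun h => hv0' ((QuotientAddGroup.eq_zero_iff v0).mp h.symm), hne⟩
          omega
        have h4 := mem_fixA.mp hdiff a (Subgroup.mem_top a)
        rw [map_sub] at h4
        calc α a v - v = (α a v - α a v0) + α a v0 - v := by abel
          _ = _ := by rw [h4]; abel
    · -- four copies
      push Not at hall
      obtain ⟨c, hc, hca⟩ := hall
      have hd : Moves σ α (a * c) := (hH _).resolve_left fun h => hca (by
        calc α c = α a * α (a * c) := by rw [← map_mul, ← mul_assoc, hA, one_mul]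
          _ = α a := by rw [htriv _ h, mul_one])
      have hd' : Moves σ α (c * a) := by rw [mul_comm]; exact hd
      have hfa := twoProd_fixes_of_moves hK (hA a) (hA c) ha hc hd' (hquad a c)
      have hfc := twoProd_fixes_of_moves hK (hA c) (hA a) hc ha hd (hquad c a)
      have hfd := twoProd_fixes_of_moves hK (hA (a * c)) (hA a) hd ha
        (by rw [← mul_assoc, hA, one_mul]; exact hc) (hquad _ a)
      -- pass to the quotient by the fixed points of `K`
      have hfixes := hfa
      obtain ⟨x0, hx0, hxo0⟩ := exists_noncentral_coprime hK 2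
      set C0 := fix (Set.range σ) with hC0
      have hσC : ∀ k, ∀ u ∈ C0, σ k u ∈ C0 := fun k u hu => by
        rw [mem_fix_range.mp hu k]; exact hu
      have hαC : ∀ e, ∀ u ∈ C0, α e u ∈ C0 := by
        intro e u hu
        have h := alpha_mem_fix_tw (σ := σ) (α := α) (a := e) hu
        rcases hH e with he | he
        · rw [show α e u = u from DFunLike.congr_fun (htriv e he) u]; exact hu
        · have hfe : ∀ k v, σ k (tw σ α e k (α e v - v)) = α e v - v := by
            by_cases hea : α e = α a
            · intro k v
              have : tw σ α e k = tw σ α a k := by rw [tw_apply, tw_apply, hinv, hinv, hea]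
              rw [this, hea]; exact hfa k v
            · refine twoProd_fixes_of_moves hK (hA e) (hA a) he ha ?_ (hquad e a)
              exact (hH _).resolve_left fun h' => hea (by
                calc α e = α a * α (a * e) := by rw [← map_mul, ← mul_assoc, hA, one_mul]
                  _ = α a := by rw [htriv _ h', mul_one])
          rw [hC0, (fix_facts hV hK (hA e) he hfe hx0 (Nat.coprime_two_right.mp hxo0)).2]
          exact h
      refine not_four (σ := quot σ C0 hσC) (α := quot α C0 hαC) hK ?_ (hA a) (hA c)
        (fun k l => AddMonoidHom.ext fun w => ?_) (fun k l => AddMonoidHom.ext fun w => ?_)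
        (fun k l => AddMonoidHom.ext fun w => ?_) (fun k w => ?_) (fun k w => ?_) (fun k w => ?_)
        (fun x hx hxo w hw => ?_) ?_
      · intro w
        induction w using QuotientAddGroup.induction_on with
        | H v => rw [← QuotientAddGroup.mk_nsmul, hV, QuotientAddGroup.mk_zero]
      · induction w using QuotientAddGroup.induction_on with
        | H v => exact congrArg (fun z : V => (z : V ⧸ C0)) (DFunLike.congr_fun (ha k l).eq v)
      · induction w using QuotientAddGroup.induction_on with
        | H v => exact congrArg (fun z : V => (z : V ⧸ C0)) (DFunLike.congr_fun (hc k l).eq v)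
      · induction w using QuotientAddGroup.induction_on with
        | H v => exact congrArg (fun z : V => (z : V ⧸ C0)) (DFunLike.congr_fun (hd k l).eq v)
      · induction w using QuotientAddGroup.induction_on with
        | H v => exact congrArg (fun z : V => (z : V ⧸ C0)) (hfa k v)
      · induction w using QuotientAddGroup.induction_on with
        | H v => exact congrArg (fun z : V => (z : V ⧸ C0)) (hfc k v)
      · induction w using QuotientAddGroup.induction_on with
        | H v => exact congrArg (fun z : V => (z : V ⧸ C0)) (hfd k v)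
      · induction w using QuotientAddGroup.induction_on with
        | H v =>
          rw [quot_mk, QuotientAddGroup.eq_iff_sub_mem] at hw
          rw [QuotientAddGroup.eq_zero_iff]
          have h1 := eq_of_coprime_pow hV (image_pow_order σ x) (Nat.coprime_two_right.mpr hxo)
            (mem_fix_range.mp hw x)
          exact (fix_facts hV hK (hA a) ha hfixes hx hxo).1 v h1
      · by_contra hcon
        push Not at hcon
        obtain ⟨k0, hk0⟩ := hnt
        refine hk0 (trivial_of_series hK σ (fun k l v => ?_) k0)
        have h := DFunLike.congr_fun (hcon k) (v : V ⧸ C0)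
        rw [quot_mk] at h
        exact mem_fix_range.mp ((QuotientAddGroup.eq_iff_sub_mem).mp h) l
  · push Not at htriv
    obtain ⟨b0, hb0, hb0'⟩ := htriv
    have han : ∀ e : A, e ^ 2 = 1 := fun e => by rw [pow_two]; exact hA e
    have hfixes : ∀ e, Moves σ α e → ∀ k v, σ k (tw σ α e k (α e v - v)) = α e v - v := by
      intro e he k v
      have h := orb_fixes hK (han e) (orbComm_of_moves hK hnt hH (han e) he) hb0
        (hnc b0 hb0' hb0) hnt (fun v => hquad e b0 v) k v
      rwa [orb_two, endo_mul_apply] at h
    by_cases hfour : ∃ c, Moves σ α c ∧ Moves σ α (a * c)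
    · obtain ⟨c, hc, hd⟩ := hfour
      set C0 := fix (Set.range σ) with hC0
      have hσC : ∀ k, ∀ u ∈ C0, σ k u ∈ C0 := fun k u hu => by
        rw [mem_fix_range.mp hu k]; exact hu
      obtain ⟨x0, hx0, hxo0⟩ := exists_noncentral_coprime hK 2
      have hαC : ∀ e, ∀ u ∈ C0, α e u ∈ C0 := by
        intro e u hu
        have h := alpha_mem_fix_tw (σ := σ) (α := α) (a := e) hu
        rcases hH e with he | he
        · rw [mem_fix_range] at h ⊢
          intro k
          obtain ⟨l, hl⟩ := he.inv k
          have := h l
          rwa [tw_apply e l, ← hl, ← tw_mul, mul_inv_cancel, tw_one] at this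
        · rw [hC0, (fix_facts hV hK (hA e) he (hfixes e he) hx0 (Nat.coprime_two_right.mp hxo0)).2]
          exact h
      refine not_four (σ := quot σ C0 hσC) (α := quot α C0 hαC) hK ?_ (hA a) (hA c)
        (fun k l => AddMonoidHom.ext fun w => ?_) (fun k l => AddMonoidHom.ext fun w => ?_)
        (fun k l => AddMonoidHom.ext fun w => ?_) (fun k w => ?_) (fun k w => ?_) (fun k w => ?_)
        (fun x hx hxo w hw => ?_) ?_
      · intro w
        induction w using QuotientAddGroup.induction_on with
        | H v => rw [← QuotientAddGroup.mk_nsmul, hV, QuotientAddGroup.mk_zero]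
      · induction w using QuotientAddGroup.induction_on with
        | H v => exact congrArg (fun z : V => (z : V ⧸ C0)) (DFunLike.congr_fun (ha k l).eq v)
      · induction w using QuotientAddGroup.induction_on with
        | H v => exact congrArg (fun z : V => (z : V ⧸ C0)) (DFunLike.congr_fun (hc k l).eq v)
      · induction w using QuotientAddGroup.induction_on with
        | H v => exact congrArg (fun z : V => (z : V ⧸ C0)) (DFunLike.congr_fun (hd k l).eq v)
      · induction w using QuotientAddGroup.induction_on with
        | H v => exact congrArg (fun z : V => (z : V ⧸ C0)) (hfixes a ha k v)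
      · induction w using QuotientAddGroup.induction_on with
        | H v => exact congrArg (fun z : V => (z : V ⧸ C0)) (hfixes c hc k v)
      · induction w using QuotientAddGroup.induction_on with
        | H v => exact congrArg (fun z : V => (z : V ⧸ C0)) (hfixes _ hd k v)
      · induction w using QuotientAddGroup.induction_on with
        | H v =>
          rw [quot_mk, QuotientAddGroup.eq_iff_sub_mem] at hw
          rw [QuotientAddGroup.eq_zero_iff]
          have h1 := eq_of_coprime_pow hV (image_pow_order σ x) (Nat.coprime_two_right.mpr hxo)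
            (mem_fix_range.mp hw x)
          exact (fix_facts hV hK (hA a) ha (hfixes a ha) hx hxo).1 v h1
      · by_contra hcon
        push Not at hcon
        obtain ⟨k0, hk0⟩ := hnt
        refine hk0 (trivial_of_series hK σ (fun k l v => ?_) k0)
        have h := DFunLike.congr_fun (hcon k) (v : V ⧸ C0)
        rw [quot_mk] at h
        exact mem_fix_range.mp ((QuotientAddGroup.eq_iff_sub_mem).mp h) l
    · push Not at hfour
      refine final_count hV hA hK hnt hH hnc ha hfixes N0 (fun b hb => hb)
        (fun b _ c _ v => hquad b c v) hb0 hb0' ?_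
      have hidx : (actKer α).index ≤ 2 * (actKer (α.comp N0.subtype)).index := by
        rw [Subgroup.index_eq_card, Subgroup.index_eq_card]
        let f : Bool × (N0 ⧸ actKer (α.comp N0.subtype)) → A ⧸ actKer α := fun x =>
          (((if x.1 then a else 1) * (x.2.out : A) : A) : A ⧸ actKer α)
        have hf : Function.Surjective f := by
          intro q
          induction q using QuotientGroup.induction_on with
          | H c =>
            obtain ⟨t, hn⟩ : ∃ t : Bool, (if t then a else 1) * c ∈ N0 := by
              rcases hH c with h | h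
              · exact ⟨false, by simpa using (show c ∈ N0 from h)⟩
              · exact ⟨true, by
                  simp only [if_true]
                  exact (hH _).resolve_right (hfour c h)⟩
            refine ⟨(t, ((⟨_, hn⟩ : N0) : N0 ⧸ _)), ?_⟩
            show (((if t then a else 1) * _ : A) : A ⧸ actKer α) = _
            rw [QuotientGroup.eq, mem_actKer]
            set m : N0 := ⟨_, hn⟩ with hm
            have h1 : α (((m : N0 ⧸ actKer (α.comp N0.subtype)).out : N0) : A) = α (m : A) := by
              have h2 := mem_actKer.mp (QuotientGroup.eq.mp (QuotientGroup.out_eq'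
                (m : N0 ⧸ actKer (α.comp N0.subtype))))
              have h3 : α ((((m : N0 ⧸ actKer (α.comp N0.subtype)).out : N0) : A)⁻¹) * α (m : A) = 1 := by
                rw [← map_mul]; exact h2
              calc _ = α _ * (α ((((m : N0 ⧸ actKer (α.comp N0.subtype)).out : N0) : A)⁻¹) * α (m : A)) := by
                    rw [h3, mul_one]
                _ = α (m : A) := by rw [← mul_assoc, alpha_mul_inv, one_mul]
            rw [mul_inv_rev, map_mul, map_mul, hinv (if t then a else 1),
              hinv (((m : N0 ⧸ actKer (α.comp N0.subtype)).out : N0) : A), h1, hm]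
            show α ((if t then a else 1) * c) * α (if t then a else 1) * α c = 1
            rw [← map_mul, ← map_mul, mul_assoc, hA, map_one]
        haveI := Fintype.ofFinite (N0 ⧸ actKer (α.comp N0.subtype))
        calc Nat.card (A ⧸ actKer α) ≤ Nat.card (Bool × (N0 ⧸ actKer (α.comp N0.subtype))) :=
              Nat.card_le_card_of_surjective f hf
          _ = _ := by rw [Nat.card_prod, Nat.card_eq_fintype_card (α := Bool)]; rfl
      exact hsmall.trans (Nat.mul_le_mul hidx (AddSubgroup.card_le_of_le (fixA_anti le_top)))

/-- Chermak's theorem. -/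
theorem not_moves {p : ℕ} [hp : Fact p.Prime] {K A : Type*} [Group K] [CommGroup A] [Finite K]
    [Finite A] (hA : ∀ c : A, c ^ p = 1) (hK : IsQuasisimple K) :
    ∀ (n : ℕ) (V : Type u) [AddCommGroup V] [Finite V], Nat.card V ≤ n → Claim V K A p := by
  intro n
  induction n with
  | zero =>
    intro V _ _ hn
    have := Nat.card_pos (α := V)
    omega
  | succ n ih =>
    intro V _ _ hn σ α hnt hV hH hbest a ha
    have IH : ∀ U : AddSubgroup V, U ≠ ⊤ → Claim U K A p := fun U hU => ih U (by
      have h1 : Nat.card U < Nat.card V := lt_of_le_of_ne (AddSubgroup.card_le_card_addGroup U)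
        (fun h => hU ((AddSubgroup.card_eq_iff_eq_top U).mp h))
      omega)
    have hnc := noncentralizing hV hA hK hnt hH hbest ha IH
    obtain ⟨hwB, hfixB⟩ := replacement hbest
    obtain ⟨b0, hb0, hb0'⟩ : ∃ b ∈ bar α, α b ≠ 1 := by
      by_contra hcon
      push Not at hcon
      have h : ⊤ ≤ augSpan α := le_trans (fun v _ => mem_fixA.mpr fun b hb =>
        DFunLike.congr_fun (hcon b hb) v) hfixB
      have ht := trivial_of_augSpan hV hA h
      refine Norm.not_moves hK hnt (a := a) (fun k => ⟨k, AddMonoidHom.ext fun v => ?_⟩) ha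
      show α a (σ k (α a⁻¹ v)) = σ k v
      rw [ht, ht]
    have hbar : ∀ b ∈ bar α, ∀ c v, α b (α c v - v) = α c v - v := fun b hb c v => hb c v
    rcases eq_or_ne p 2 with hp2 | hp2
    · subst hp2
      have hA2 : ∀ c : A, c * c = 1 := fun c => by rw [← pow_two]; exact hA c
      by_cases hallN : ∀ b ∈ bar α, Norm σ α b
      · have hfixes : ∀ e, Moves σ α e → ∀ k v, σ k (tw σ α e k (α e v - v)) = α e v - v := by
          intro e he k v
          have h := orb_fixes hK (hA e) (orbComm_of_moves hK hnt hH (hA e) he) (hallN b0 hb0)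
            (hnc b0 hb0' (hallN b0 hb0)) hnt (fun v => hbar b0 hb0 e v) k v
          rwa [orb_two, endo_mul_apply] at h
        refine final_count hV hA2 hK hnt hH hnc ha hfixes (bar α) hallN
          (fun b hb c hc v => hbar c hc b v) hb0 hb0' ?_
        refine (card_le_index_mul (B := bar α) fun D _ => hwB ▸ hbest D).trans ?_
        exact Nat.mul_le_mul_right _ (Nat.le_mul_of_pos_left _ two_pos)
      · push Not at hallN
        obtain ⟨b1, hb1, hb1N⟩ := hallN
        refine not_moves_quadratic (σ := σ) (α := α.comp (bar α).subtype) hV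
          (fun c => Subtype.ext (hA2 c)) hK hnt (fun c => hH c) ?_ (fun c => hnc c)
          (fun b c v => hbar c c.2 b v) (a := ⟨b1, hb1⟩) ((hH b1).resolve_left hb1N)
        intro D
        have e : ∀ D : Subgroup (bar α), wt (α.comp (bar α).subtype) D
            = wt α (D.map (bar α).subtype) := by
          intro D
          unfold wt
          rw [Subgroup.card_map_of_injective (bar α).subtype_injective]
          have h : fixA (α.comp (bar α).subtype) D = fixA α (D.map (bar α).subtype) := by
            unfold fixA
            congr 1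
            rw [Subgroup.coe_map, ← Set.image_comp]
            rfl
          rw [h]
        rw [e, e, show (⊤ : Subgroup (bar α)).map (bar α).subtype = bar α by
          rw [← MonoidHom.range_eq_map, Subgroup.range_subtype], hwB]
        exact hbest _
    · have hnorm : ∀ b ∈ bar α, Norm σ α b := fun b hb => (hH b).resolve_right fun hbm => by
        refine not_quadratic_moves hp2 hV hK hnt hbm ?_ (fun v => hbar b hb b v)
        rw [← pow_two]
        exact moves_pow hK hnt hH (hA b) hbm (fun hd => hp2
          ((Nat.prime_dvd_prime_iff_eq hp.out Nat.prime_two).mp hd))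
      have hO := orbComm_of_moves hK hnt hH (hA a) ha
      exact not_orb_fixes hp2 hV hK hnt (hA a) hO (orb_fixes hK (hA a) hO (hnorm b0 hb0)
        (hnc b0 hb0' (hnorm b0 hb0)) hnt (fun v => hbar b0 hb0 a v))

end Cfsg.Agent.LocEven.Chermak
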