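import Cfsg.Agent.LocEven.Chermak.Basic

/-!
The product over an orbit of commuting copies, and the contradiction for odd primes.
-/

set_option autoImplicit false

namespace Cfsg.Agent.LocEven.Chermak

open Cfsg
open scoped commutatorElement

variable {V : Type*} [AddCommGroup V] {K A : Type*} [Group K] [CommGroup A]
variable {σ : K →* AddMonoid.End V} {α : A →* AddMonoid.End V}

variable (σ α) in
/-- The product of the first `n` conjugates of `σ k`. -/
def orb (a : A) : ℕ → K → AddMonoid.End V
  | 0, _ => 1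
  | n + 1, k => orb a n k * tw σ α (a ^ n) k

theorem orb_two (a : A) (k : K) : orb σ α a 2 k = σ k * tw σ α a k := by
  simp [orb, tw_one]

variable (σ α) in
/-- The copies with index below `n` commute pairwise. -/
def OrbComm (a : A) (n : ℕ) : Prop :=
  ∀ i < n, ∀ j < n, i ≠ j → ∀ k l, Commute (tw σ α (a ^ i) k) (tw σ α (a ^ j) l)

theorem orb_commute {a : A} {j : ℕ} {l : K} : ∀ {n : ℕ} (k : K),
    (∀ i < n, Commute (tw σ α (a ^ i) k) (tw σ α (a ^ j) l)) →
    Commute (orb σ α a n k) (tw σ α (a ^ j) l)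
  | 0, _, _ => Commute.one_left _
  | n + 1, k, h => (orb_commute k (fun i hi => h i (by omega))).mul_left (h n (by omega))

theorem orb_one {a : A} : ∀ n : ℕ, orb σ α a n 1 = 1
  | 0 => rfl
  | n + 1 => by rw [orb, orb_one n, map_one, one_mul]

theorem orb_mul {a : A} : ∀ {n : ℕ}, OrbComm σ α a n → ∀ k l,
    orb σ α a n (k * l) = orb σ α a n k * orb σ α a n l
  | 0, _, _, _ => by simp [orb]
  | n + 1, h, k, l => by
    have hc : Commute (orb σ α a n l) (tw σ α (a ^ n) k) :=
      orb_commute l fun i hi => h i (by omega) n (by omega) (by omega) l k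
    have ih := orb_mul (n := n) (fun i hi j hj => h i (by omega) j (by omega)) k l
    simp only [orb]
    rw [ih, map_mul]
    calc orb σ α a n k * orb σ α a n l * (tw σ α (a ^ n) k * tw σ α (a ^ n) l)
        = orb σ α a n k * (orb σ α a n l * tw σ α (a ^ n) k) * tw σ α (a ^ n) l := by
          simp only [mul_assoc]
      _ = _ := by rw [hc.eq]; simp only [mul_assoc]

/-- The orbit product as a homomorphism. -/
def orbHom {a : A} {n : ℕ} (h : OrbComm σ α a n) : K →* AddMonoid.End V where
  toFun := orb σ α a n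
  map_one' := orb_one n
  map_mul' := orb_mul h

theorem orbHom_apply {a : A} {n : ℕ} (h : OrbComm σ α a n) (k : K) :
    orbHom h k = orb σ α a n k := rfl

/-- The orbit product commutes with `a`. -/
theorem orb_commute_self {a : A} {n : ℕ} (han : a ^ n = 1) (h : OrbComm σ α a n) (k : K) :
    Commute (α a) (orb σ α a n k) := by
  rcases n with _ | n
  · exact Commute.one_right _
  -- the shifted product
  let S : ℕ → AddMonoid.End V := fun m =>
    Nat.rec 1 (fun i acc => acc * tw σ α (a ^ (i + 1)) k) m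
  have hS : ∀ m, α a * orb σ α a m k = S m * α a := by
    intro m
    induction m with
    | zero => simp [S, orb]
    | succ m ih =>
      simp only [orb]
      rw [← mul_assoc, ih, mul_assoc]
      show S m * _ = S m * tw σ α (a ^ (m + 1)) k * α a
      rw [mul_assoc, pow_succ' a m, tw_mul a, mul_assoc (α a * _), alpha_inv_mul, mul_one]
  have hO : ∀ m, orb σ α a (m + 1) k = σ k * S m := by
    intro m
    induction m with
    | zero => simp [S, orb, tw_one]
    | succ m ih => rw [orb, ih, mul_assoc]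
  have hcom : ∀ m ≤ n, Commute (σ k) (S m) := by
    intro m
    induction m with
    | zero => intro _; exact Commute.one_right _
    | succ m ih =>
      intro hm
      refine (ih (by omega)).mul_right ?_
      have := h 0 (by omega) (m + 1) (by omega) (by omega) k k
      rwa [pow_zero, tw_one] at this
  have e : S (n + 1) = orb σ α a (n + 1) k := by
    show S n * tw σ α (a ^ (n + 1)) k = _
    rw [han, tw_one, hO, (hcom n le_rfl).eq]
  show α a * _ = _
  rw [hS, e]

theorem orb_intertwine {a b : A} {k l : K} (hl : tw σ α b k = σ l) :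
    ∀ n : ℕ, α b * orb σ α a n k = orb σ α a n l * α b
  | 0 => by simp [orb]
  | n + 1 => by
    have e : α b * tw σ α (a ^ n) k = tw σ α (a ^ n) l * α b := by
      calc α b * tw σ α (a ^ n) k = tw σ α (b * a ^ n) k * α b := by
            rw [tw_mul, mul_assoc _ (α b⁻¹), alpha_inv_mul, mul_one]
        _ = _ := by rw [mul_comm b, tw_mul, hl, ← tw_apply]
    simp only [orb]
    rw [← mul_assoc, orb_intertwine hl n, mul_assoc, e, mul_assoc]

theorem moves_pow [Finite A] {p : ℕ} [hp : Fact p.Prime] (hK : IsQuasisimple K)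
    (hnt : ∃ k, σ k ≠ 1) (hH : ∀ c, Norm σ α c ∨ Moves σ α c) {a : A} (hap : a ^ p = 1)
    (ha : Moves σ α a) {i : ℕ} (hi : ¬ p ∣ i) : Moves σ α (a ^ i) := by
  refine (hH _).resolve_left fun hn => ?_
  obtain ⟨j, hj⟩ := Nat.exists_mul_mod_eq_one_of_coprime
    ((hp.out.coprime_iff_not_dvd.mpr hi).symm) hp.out.one_lt
  refine Norm.not_moves hK hnt ?_ ha
  have h1 := hn.pow j
  rwa [← pow_mul, pow_eq_pow_mod _ hap, hj.2, pow_one] at h1

theorem orbComm_of_moves [Finite A] {p : ℕ} [hp : Fact p.Prime] (hK : IsQuasisimple K)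
    (hnt : ∃ k, σ k ≠ 1) (hH : ∀ c, Norm σ α c ∨ Moves σ α c) {a : A} (hap : a ^ p = 1)
    (ha : Moves σ α a) : OrbComm σ α a p := by
  suffices ∀ i j, j < p → i < j → ∀ k l, Commute (tw σ α (a ^ i) k) (tw σ α (a ^ j) l) by
    intro i hi j hj hij k l
    rcases lt_or_gt_of_ne hij with h | h
    · exact this i j hj h k l
    · exact (this j i hi h l k).symm
  intro i j hj hij k l
  refine Moves.commute ?_ k l
  have : (a ^ i)⁻¹ * a ^ j = a ^ (j - i) := by
    rw [inv_mul_eq_iff_eq_mul, ← pow_add, Nat.add_sub_cancel' hij.le]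
  rw [this]
  exact moves_pow hK hnt hH hap ha (fun hd => by
    have := Nat.le_of_dvd (by omega) hd; omega)

/-- If a normalizing element fixes `[V,a]` and does not centralize `K`, the orbit product
fixes `[V,a]`. -/
theorem orb_fixes (hK : IsQuasisimple K) {a b : A} {n : ℕ} (han : a ^ n = 1)
    (h : OrbComm σ α a n) (hb : Norm σ α b) (hbc : ∃ k, tw σ α b k ≠ σ k)
    (hnt : ∃ k, σ k ≠ 1) (hfix : ∀ v, α b (α a v - v) = α a v - v) :
    ∀ k v, orb σ α a n k (α a v - v) = α a v - v := by
  have hR : ∀ k v, orb σ α a n k (α a v - v) = α a (orb σ α a n k v) - orb σ α a n k v := by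
    intro k v
    rw [map_sub, ← endo_mul_apply _ (α a), ← (orb_commute_self han h k).eq, endo_mul_apply]
  set P : K → Prop := fun k => ∀ v, orb σ α a n k (α a v - v) = α a v - v with hP
  suffices ∃ x, x ∉ Subgroup.center K ∧ P x by
    obtain ⟨x, hx, hPx⟩ := this
    refine forall_of_noncentral hK P ?_ ?_ ?_ ?_ hx hPx
    · intro v; rw [orb_one]; rfl
    · intro k l hk hl v
      rw [orb_mul h, endo_mul_apply, hl v, hk v]
    · intro k hk v
      conv_lhs => rw [← hk v, ← endo_mul_apply, ← orb_mul h, inv_mul_cancel, orb_one]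
      rfl
    · intro g k hk v
      rw [orb_mul h, orb_mul h, endo_mul_apply, endo_mul_apply, hR g⁻¹, hk, ← hR g⁻¹,
        ← endo_mul_apply, ← orb_mul h, mul_inv_cancel, orb_one]
      rfl
  by_contra hcon
  push Not at hcon
  obtain ⟨k0, hk0⟩ := hbc
  refine hk0 ?_
  -- on commutators `b` acts trivially
  have hz : ∀ k, ∃ z ∈ Subgroup.center K, tw σ α b k = σ (k * z) := by
    intro k
    obtain ⟨l, hl⟩ := hb k
    refine ⟨k⁻¹ * l, ?_, by rw [hl, mul_inv_cancel_left]⟩
    by_contra hc
    refine hcon _ hc fun v => ?_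
    have h1 := DFunLike.congr_fun (orb_intertwine (a := a) hl n) (α a v - v)
    rw [endo_mul_apply, endo_mul_apply, hfix, hR k v, hfix, ← hR k v] at h1
    rw [orb_mul h, endo_mul_apply, ← h1, ← endo_mul_apply, ← orb_mul h, inv_mul_cancel, orb_one]
    rfl
  have hcomm : commutator K ≤ (⊤ : Subgroup K) := le_top
  let N : Subgroup K :=
    { carrier := {k | tw σ α b k = σ k}
      one_mem' := by simp
      mul_mem' := fun {x y} (hx : tw σ α b x = σ x) (hy : tw σ α b y = σ y) => by
        show tw σ α b (x * y) = σ (x * y)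
        rw [map_mul, map_mul, hx, hy]
      inv_mem' := fun {x} (hx : tw σ α b x = σ x) => by
        show tw σ α b x⁻¹ = σ x⁻¹
        calc tw σ α b x⁻¹ = tw σ α b x⁻¹ * (σ x * σ x⁻¹) := by
              rw [← map_mul σ x x⁻¹, mul_inv_cancel, map_one, mul_one]
          _ = tw σ α b x⁻¹ * tw σ α b x * σ x⁻¹ := by rw [hx, mul_assoc]
          _ = σ x⁻¹ := by
              rw [← map_mul (tw σ α b) x⁻¹ x, inv_mul_cancel, map_one, one_mul] }
  have hN : commutator K ≤ N := by
    rw [commutator_def, Subgroup.commutator_le]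
    intro x _ y _
    obtain ⟨z, hzc, hzx⟩ := hz x
    obtain ⟨w, hwc, hwy⟩ := hz y
    obtain ⟨z', hzc', hzx'⟩ := hz x⁻¹
    obtain ⟨w', hwc', hwy'⟩ := hz y⁻¹
    show tw σ α b ⁅x, y⁆ = σ ⁅x, y⁆
    have hone : σ (z * z') = 1 := by
      have h0 : tw σ α b x * tw σ α b x⁻¹ = 1 := by rw [← map_mul, mul_inv_cancel, map_one]
      rw [hzx, hzx', ← map_mul] at h0
      rwa [show x * z * (x⁻¹ * z') = z * z' by
        rw [mul_assoc, ← mul_assoc z, ← (Subgroup.mem_center_iff.mp hzc x⁻¹)]; group] at h0
    have hone' : σ (w * w') = 1 := by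
      have h0 : tw σ α b y * tw σ α b y⁻¹ = 1 := by rw [← map_mul, mul_inv_cancel, map_one]
      rw [hwy, hwy', ← map_mul] at h0
      rwa [show y * w * (y⁻¹ * w') = w * w' by
        rw [mul_assoc, ← mul_assoc w, ← (Subgroup.mem_center_iff.mp hwc y⁻¹)]; group] at h0
    have hcz := Subgroup.mem_center_iff.mp hzc
    have hcw := Subgroup.mem_center_iff.mp hwc
    have hcz' := Subgroup.mem_center_iff.mp hzc'
    have hcw' := Subgroup.mem_center_iff.mp hwc'
    rw [commutatorElement_def, map_mul, map_mul, map_mul, hzx, hwy, hzx', hwy', ← map_mul,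
      ← map_mul, ← map_mul]
    rw [show x * z * (y * w) * (x⁻¹ * z') * (y⁻¹ * w') = x * y * x⁻¹ * y⁻¹ * (z * z') * (w * w') by
      have e1 : x * z * (y * w) = x * y * (z * w) := by
        rw [mul_assoc, ← mul_assoc z, ← hcz y]; group
      have e2 : z * w * x⁻¹ = x⁻¹ * (z * w) := by
        rw [mul_assoc, ← hcw x⁻¹, ← mul_assoc, ← hcz x⁻¹, mul_assoc]
      have e3 : z * w * z' * y⁻¹ = y⁻¹ * (z * w * z') := by
        rw [mul_assoc (z * w), ← hcz' y⁻¹, ← mul_assoc, mul_assoc z w y⁻¹, ← hcw y⁻¹, ← mul_assoc z,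
          ← hcz y⁻¹]; group
      have e4 : z * w * z' = z * z' * w := by rw [mul_assoc, ← hcw z', ← mul_assoc]
      calc x * z * (y * w) * (x⁻¹ * z') * (y⁻¹ * w')
          = x * y * ((z * w) * x⁻¹) * z' * y⁻¹ * w' := by rw [e1]; group
        _ = x * y * x⁻¹ * ((z * w * z') * y⁻¹) * w' := by rw [e2]; group
        _ = x * y * x⁻¹ * y⁻¹ * (z * w * z') * w' := by rw [e3]; group
        _ = _ := by rw [e4]; group]
    rw [map_mul, map_mul, hone, hone', mul_one, mul_one]
  have := hK.1.commutator_eq_top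
  exact hN (this ▸ Subgroup.mem_top k0)

/-- A quadratic element moving `K` does not exist for odd `p`. -/
theorem not_quadratic_moves [Finite K] {p : ℕ} [hp : Fact p.Prime] (hp2 : p ≠ 2)
    (hV : ∀ v : V, p • v = 0) (hK : IsQuasisimple K) (hnt : ∃ k, σ k ≠ 1) {a : A}
    (ha : Moves σ α a) (ha2 : Moves σ α (a * a))
    (hq : ∀ v, α a (α a v - v) = α a v - v) : False := by
  obtain ⟨x, hx, hxp⟩ := exists_noncentral_coprime hK p
  refine hx (mem_center_of_image_central hK σ hnt fun l => ?_)
  set X := σ x with hX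
  set N : AddMonoid.End V := α a - 1 with hN
  have hNv : ∀ v, N v = α a v - v := fun v => rfl
  have hN2 : N * N = 0 := by
    refine AddMonoidHom.ext fun v => ?_
    show N (N v) = 0
    rw [hNv, hNv, hq, sub_self]
  have ha1 : α a = 1 + N := by rw [hN]; abel
  have ha1' : α a⁻¹ = 1 - N := by
    calc α a⁻¹ = α a⁻¹ * ((1 + N) * (1 - N)) := by
          rw [show (1 + N) * (1 - N) = 1 - N * N by noncomm_ring, hN2, sub_zero, mul_one]
      _ = _ := by rw [← ha1, ← mul_assoc, alpha_inv_mul, one_mul]
  set P := N * X - X * N with hP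
  set Q := N * X * N with hQ
  have e1 : tw σ α a x = X + P - Q := by
    rw [tw_apply, ha1, ha1', hP, hQ]
    noncomm_ring
  have e2 : tw σ α (a * a) x = X + 2 • P - 4 • Q := by
    rw [tw_mul, e1, ha1, ha1', hP, hQ]
    have : N * (N * X) = 0 := by rw [← mul_assoc, hN2, zero_mul]
    have h3 : ∀ Y, N * (N * Y) = 0 := fun Y => by rw [← mul_assoc, hN2, zero_mul]
    simp only [add_mul, mul_add, sub_mul, mul_sub, one_mul, mul_one, mul_assoc, hN2, h3, mul_zero]
    abel
  have c1 : Commute X (P - Q) := by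
    have := (ha x x).sub_right (Commute.refl (σ x))
    rw [e1] at this
    simpa [hX, add_sub_assoc] using this
  have c2 : Commute X (2 • P - 4 • Q) := by
    have := (ha2 x x).sub_right (Commute.refl (σ x))
    rw [e2] at this
    simpa [hX, add_sub_assoc] using this
  have hEnd : ∀ f : AddMonoid.End V, p • f = 0 := fun f => AddMonoidHom.ext fun v => hV (f v)
  obtain ⟨q, hq'⟩ : ∃ q, p = 2 * q + 1 := by
    obtain ⟨q, hq'⟩ := hp.out.odd_of_ne_two hp2
    exact ⟨q, hq'⟩
  have half : ∀ f : AddMonoid.End V, f = (q + 1) • (2 • f) := by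
    intro f
    have h := hEnd f
    rw [hq'] at h
    rw [← mul_nsmul, show 2 * (q + 1) = (2 * q + 1) + 1 by ring, succ_nsmul, h, zero_add]
  have cQ : Commute X Q := by
    have h1 : Commute X (2 • Q) := by
      have := (c1.smul_right 2).sub_right c2
      have e : 2 • (P - Q) - (2 • P - 4 • Q) = 2 • Q := by abel
      rwa [e] at this
    rw [half Q]
    exact h1.smul_right _
  have cP : Commute X P := by simpa using c1.add_right cQ
  -- `X` commutes with `N`
  have hpow : ∀ n : ℕ, N * X ^ n - X ^ n * N = n • (X ^ (n - 1) * P) := by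
    intro n
    induction n with
    | zero => simp
    | succ n ih =>
      rcases Nat.eq_zero_or_pos n with h0 | h0
      · subst h0; simp [hP]
      have e : N * X ^ (n + 1) - X ^ (n + 1) * N
          = (N * X ^ n - X ^ n * N) * X + X ^ n * P := by
        rw [hP, pow_succ]; noncomm_ring
      rw [e, ih, smul_mul_assoc, mul_assoc, ← cP.eq, ← mul_assoc, ← pow_succ,
        Nat.sub_add_cancel h0, Nat.add_sub_cancel, succ_nsmul]
  have hm := hpow (orderOf x)
  have hXm : X ^ orderOf x = 1 := by rw [hX, ← map_pow, pow_orderOf_eq_one, map_one]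
  rw [hXm, mul_one, one_mul, sub_self] at hm
  obtain ⟨j, hj⟩ := Nat.exists_mul_mod_eq_one_of_coprime hxp hp.out.one_lt
  have hP0 : X ^ (orderOf x - 1) * P = 0 := by
    have h1 := congrArg (j • ·) hm.symm
    simp only [nsmul_zero, ← mul_nsmul] at h1
    rw [← Nat.mod_add_div (orderOf x * j) p, hj.2, add_nsmul, one_nsmul, mul_nsmul, hEnd,
      nsmul_zero, add_zero] at h1
    exact h1
  have hP00 : P = 0 := by
    have h1 := congrArg (X * ·) hP0
    simp only [mul_zero, ← mul_assoc, ← pow_succ'] at h1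
    rwa [Nat.sub_add_cancel (orderOf_pos x), hXm, one_mul] at h1
  have hXN : N * X = X * N := sub_eq_zero.mp hP00
  have : tw σ α a x = X := by
    rw [e1, hP00, hQ, hXN, mul_assoc, hN2, mul_zero]; abel
  have h := ha l x
  rw [this] at h
  exact h.symm.eq

end Cfsg.Agent.LocEven.Chermak
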