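import Cfsg.Agent.LocEven.Chermak.Basic
import Cfsg.Agent.Invol.BaerSuzuki

/-!
Small modules and inverted elements for quasisimple groups in characteristic 2.
-/

set_option autoImplicit false

namespace Cfsg.Agent.LocEven.Chermak

open Cfsg

variable {V : Type*} [AddCommGroup V] {K B : Type*} [Group K] [CommGroup B]
variable {σ : K →* AddMonoid.End V} {β : B →* AddMonoid.End V}

/-- A quasisimple group fixes every point of an invariant set of at most four points with zero. -/
theorem trivial_on_small [Finite V] (hK : IsQuasisimple K) (hcard : Nat.card V ≤ 4) (k : K) :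
    σ k = 1 := by
  classical
  haveI := Fintype.ofFinite V
  let T : Type _ := {v : V // v ≠ 0}
  have hT : Fintype.card T ≤ 3 := by
    rw [Nat.card_eq_fintype_card] at hcard
    have : Fintype.card T = Fintype.card V - 1 := by
      simp [T, Fintype.card_subtype_compl]
    omega
  have hinv : ∀ k, ∀ v : V, σ k⁻¹ (σ k v) = v := fun k v => by
    rw [← endo_mul_apply, ← map_mul, inv_mul_cancel, map_one]; rfl
  let φ : K →* Equiv.Perm T :=
    { toFun := fun k =>
        { toFun := fun v => ⟨σ k v, fun h => v.2 (by rw [← hinv k v, h, map_zero])⟩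
          invFun := fun v => ⟨σ k⁻¹ v, fun h => v.2 (by
            rw [← hinv k⁻¹ v, h, map_zero])⟩
          left_inv := fun v => Subtype.ext (hinv k v)
          right_inv := fun v => Subtype.ext (by
            have := hinv k⁻¹ v
            rwa [inv_inv] at this) }
      map_one' := Equiv.ext fun v => Subtype.ext (by show σ 1 (v : V) = v; rw [map_one]; rfl)
      map_mul' := fun a b => Equiv.ext fun v => Subtype.ext (by
        show σ (a * b) (v : V) = σ a (σ b v); rw [map_mul]; rfl) }
  have hsign : ∀ k, Equiv.Perm.sign (φ k) = 1 :=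
    hom_trivial_of_comm hK (Equiv.Perm.sign.comp φ) (fun a b => mul_comm _ _)
  have hcomm : ∀ a b, φ a * φ b = φ b * φ a := by
    intro a b
    by_cases h3 : Fintype.card T ≤ 2
    · haveI : IsMulCommutative (Equiv.Perm T) := by
        have hle : Nat.card (Equiv.Perm T) ≤ 2 := by
          rw [Nat.card_perm, Nat.card_eq_fintype_card]
          exact (Nat.factorial_le h3).trans (by simp)
        rcases Nat.lt_or_ge (Nat.card (Equiv.Perm T)) 2 with h | h
        · haveI : Subsingleton (Equiv.Perm T) :=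
            Finite.card_le_one_iff_subsingleton.mp (by omega)
          exact ⟨⟨fun x y => Subsingleton.elim _ _⟩⟩
        · haveI : Fact (Nat.Prime 2) := ⟨Nat.prime_two⟩
          haveI := isCyclic_of_prime_card (p := 2) (le_antisymm hle h)
          exact IsCyclic.commutative
      exact mul_comm' _ _
    · haveI : Nontrivial T := Fintype.one_lt_card_iff_nontrivial.mp (by omega)
      haveI : Fact (Nat.Prime 3) := ⟨Nat.prime_three⟩
      have hA : Nat.card (alternatingGroup T) = 3 := by
        have h := two_mul_card_alternatingGroup (α := T)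
        have h3' : Fintype.card T = 3 := by omega
        rw [Fintype.card_perm, h3', show Nat.factorial 3 = 6 from rfl] at h
        rw [Nat.card_eq_fintype_card]
        clear * - h
        omega
      haveI := isCyclic_of_prime_card hA
      haveI : IsMulCommutative (alternatingGroup T) := IsCyclic.commutative
      exact congrArg Subtype.val (mul_comm'
        (⟨φ a, Equiv.Perm.mem_alternatingGroup.mpr (hsign a)⟩ : alternatingGroup T)
        ⟨φ b, Equiv.Perm.mem_alternatingGroup.mpr (hsign b)⟩)
  have h1 := hom_trivial_of_comm hK φ hcomm k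
  refine AddMonoidHom.ext fun v => ?_
  by_cases hv : v = 0
  · show σ k v = v; rw [hv, map_zero]
  · exact congrArg Subtype.val (DFunLike.congr_fun h1 (⟨v, hv⟩ : T))

/-- If a normalizing element agrees with the identity modulo the centre, it centralizes. -/
theorem tw_eq_of_mod_center (hK : IsQuasisimple K) {b : B}
    (hz : ∀ k, ∃ z ∈ Subgroup.center K, tw σ β b k = σ (k * z)) : ∀ k, tw σ β b k = σ k := by
  let χ : K → AddMonoid.End V := fun k => tw σ β b k * σ k⁻¹
  have hχ : ∀ k, ∃ z ∈ Subgroup.center K, χ k = σ z := by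
    intro k
    obtain ⟨z, hzc, hzk⟩ := hz k
    refine ⟨z, hzc, ?_⟩
    show tw σ β b k * σ k⁻¹ = _
    rw [hzk, ← map_mul, mul_assoc, ← Subgroup.mem_center_iff.mp hzc, mul_inv_cancel_left]
  have hmul : ∀ k l, χ (k * l) = χ k * χ l := by
    intro k l
    obtain ⟨w, hwc, hwl⟩ := hχ l
    show tw σ β b (k * l) * σ (k * l)⁻¹ = tw σ β b k * σ k⁻¹ * χ l
    have hl : tw σ β b l * σ l⁻¹ = σ w := hwl
    rw [map_mul, mul_inv_rev, map_mul, ← mul_assoc, mul_assoc (tw σ β b k), hl, hwl, mul_assoc,
      ← map_mul σ w k⁻¹, ← Subgroup.mem_center_iff.mp hwc k⁻¹, map_mul, ← mul_assoc]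
  let h : K →* AddMonoid.End V :=
    { toFun := χ
      map_one' := by show tw σ β b 1 * σ 1⁻¹ = 1; rw [map_one, inv_one, map_one, one_mul]
      map_mul' := hmul }
  intro k
  have h1 : χ k = 1 := hom_trivial_of_comm hK h (fun x y => by
    obtain ⟨z, hzc, hzx⟩ := hχ x
    obtain ⟨w, hwc, hwy⟩ := hχ y
    show χ x * χ y = χ y * χ x
    rw [hzx, hwy, ← map_mul, ← map_mul, Subgroup.mem_center_iff.mp hzc w]) k
  calc tw σ β b k = tw σ β b k * (σ k⁻¹ * σ k) := by
        rw [← map_mul, inv_mul_cancel, map_one, mul_one]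
    _ = χ k * σ k := by rw [← mul_assoc]
    _ = σ k := by rw [h1, one_mul]

/-- A normalizing involution not centralizing `K` inverts a noncentral element of odd order. -/
theorem exists_inverted [Finite K] (hK : IsQuasisimple K) (hnt : ∃ k, σ k ≠ 1) {b : B}
    (hb2 : b * b = 1) (hN : Norm σ β b) (hnc : ∃ k, tw σ β b k ≠ σ k) :
    ∃ x : K, x ∉ Subgroup.center K ∧ Odd (orderOf x) ∧ β b * σ x = σ x⁻¹ * β b := by
  classical
  set Z := Subgroup.center K with hZ
  have hker : ∀ k, σ k = 1 → k ∈ Z := fun k hk =>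
    mem_center_of_image_central hK σ hnt fun l => by rw [hk, one_mul, mul_one]
  have huniq : ∀ k l, σ k = σ l → k⁻¹ * l ∈ Z := fun k l h => hker _ (by
    rw [map_mul, ← h, ← map_mul, inv_mul_cancel, map_one])
  choose f hf using hN
  have hfmul : ∀ k l, (f (k * l))⁻¹ * (f k * f l) ∈ Z := fun k l => huniq _ _ (by
    rw [← hf, map_mul, hf, hf, map_mul])
  have hff : ∀ k, (f (f k))⁻¹ * k ∈ Z := fun k => huniq _ _ (by
    rw [← hf, tw_apply, ← hf, ← tw_mul, hb2, tw_one])
  have hfZ : ∀ z ∈ Z, f z ∈ Z := by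
    intro z hz
    refine mem_center_of_image_central hK σ hnt fun l => ?_
    have h1 : σ l = tw σ β b (f l) := by rw [tw_apply, ← hf, ← tw_mul, hb2, tw_one]
    rw [← hf, h1, ← map_mul, ← map_mul, Subgroup.mem_center_iff.mp hz]
  have hwd : ∀ k l, k⁻¹ * l ∈ Z → (f k)⁻¹ * f l ∈ Z := by
    intro k l h
    have h1 := hfmul k (k⁻¹ * l)
    rw [mul_inv_cancel_left] at h1
    have h2 : (f k)⁻¹ * f l = (f (k⁻¹ * l)) * ((f l)⁻¹ * (f k * f (k⁻¹ * l)))⁻¹ := by group
    rw [h2]
    exact Z.mul_mem (hfZ _ h) (Z.inv_mem h1)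
  let Q := K ⧸ Z
  let fq : Q → Q := Quotient.map' f (fun k l h => by
    rw [QuotientGroup.leftRel_apply] at h ⊢; exact hwd k l h)
  have hfq : ∀ k : K, fq (k : Q) = ((f k : K) : Q) := fun k => rfl
  let θ : MulAut Q :=
    { toFun := fq
      invFun := fq
      left_inv := fun q => by
        induction q using QuotientGroup.induction_on with
        | H k => rw [hfq, hfq, QuotientGroup.eq]; exact hff k
      right_inv := fun q => by
        induction q using QuotientGroup.induction_on with
        | H k => rw [hfq, hfq, QuotientGroup.eq]; exact hff k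
      map_mul' := fun q r => by
        induction q using QuotientGroup.induction_on with
        | H k =>
          induction r using QuotientGroup.induction_on with
          | H l =>
            rw [← QuotientGroup.mk_mul, hfq, hfq, hfq, ← QuotientGroup.mk_mul, QuotientGroup.eq]
            exact hfmul k l }
  have hθ : θ ≠ 1 := by
    intro h
    obtain ⟨k0, hk0⟩ := hnc
    refine hk0 (tw_eq_of_mod_center hK (fun k => ⟨k⁻¹ * f k, ?_, ?_⟩) k0)
    · rw [← QuotientGroup.eq]
      exact (DFunLike.congr_fun h (k : Q)).symm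
    · rw [mul_inv_cancel_left]; exact hf k
  have hθ2 : θ * θ = 1 := MulEquiv.ext fun q => θ.left_inv q
  haveI := hK.2
  set c : Q →* MulAut Q := MulAut.conj with hc
  set H : Subgroup (MulAut Q) := c.range ⊔ Subgroup.zpowers θ with hH
  have hθH : θ ∈ H := Subgroup.mem_sup_right (Subgroup.mem_zpowers θ)
  have hO : ∀ N : Subgroup H, N.Normal → IsPGroup 2 N → (⟨θ, hθH⟩ : H) ∉ N := by
    intro N hN hNp hmem
    let j : Q →* H := MonoidHom.codRestrict c H (fun q => Subgroup.mem_sup_left ⟨q, rfl⟩)
    have hcinj : ∀ q, c q = 1 → q = 1 := by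
      intro q hq
      induction q using QuotientGroup.induction_on with
      | H k =>
        rw [QuotientGroup.eq_one_iff]
        refine mem_center_of_image_central hK (QuotientGroup.mk' Z) ?_ fun l => ?_
        · obtain ⟨k0, hk0⟩ := hnt
          by_contra hcon
          push Not at hcon
          exact Components.quasisimple_center_ne_top hK
            (eq_top_iff.mpr fun x _ => (QuotientGroup.eq_one_iff x).mp (hcon x))
        · have := DFunLike.congr_fun hq (l : Q)
          simp only [hc, MulAut.conj_apply, MulAut.one_apply] at this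
          exact mul_inv_eq_iff_eq_mul.mp this
    have hjN : ∀ q : Q, j q * ⟨θ, hθH⟩ * (j q)⁻¹ * (⟨θ, hθH⟩ : H)⁻¹ ∈ N := fun q =>
      N.mul_mem (hN.conj_mem _ hmem (j q)) (N.inv_mem hmem)
    have hsub : (N.comap j).Normal := Subgroup.normal_comap j
    have hsimple : IsSimpleGroup Q := hK.2
    rcases @IsSimpleGroup.eq_bot_or_eq_top_of_normal Q _ hsimple (N.comap j) hsub with h | h
    · refine hθ (MulEquiv.ext fun q => ?_)
      have he : j q * ⟨θ, hθH⟩ * (j q)⁻¹ * (⟨θ, hθH⟩ : H)⁻¹ = j (q * (θ q)⁻¹) := by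
        refine Subtype.ext ?_
        show c q * θ * (c q)⁻¹ * θ⁻¹ = c (q * (θ q)⁻¹)
        ext r
        simp [hc, MulAut.conj_apply, mul_assoc]
      have h1 : q * (θ q)⁻¹ ∈ N.comap j := by
        show j _ ∈ N
        rw [← he]; exact hjN q
      rw [h, Subgroup.mem_bot, mul_inv_eq_one] at h1
      exact h1.symm
    · -- a 2-group cannot contain the simple group
      haveI : Nontrivial Q := hsimple.toNontrivial
      have hQ : IsPGroup 2 Q := fun q => by
        obtain ⟨i, hi⟩ := hNp ⟨j q, Subgroup.mem_comap.mp (h ▸ Subgroup.mem_top q)⟩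
        refine ⟨i, hcinj _ ?_⟩
        rw [map_pow]
        exact congrArg (fun z : N => ((z : H) : MulAut Q)) hi
      haveI := hQ.isNilpotent
      refine Components.quasisimple_center_ne_top hK (eq_top_iff.mpr fun k _ => ?_)
      exact (QuotientGroup.eq_one_iff k).mp (hom_trivial_of_comm hK (QuotientGroup.mk' Z)
        (fun a b => IsSimpleGroup.comm_iff_isSolvable.mpr inferInstance _ _) k)
  have hθo : orderOf (⟨θ, hθH⟩ : H) = 2 := by
    rw [Subgroup.orderOf_mk]
    exact orderOf_eq_prime (by rw [pow_two]; exact hθ2) hθ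
  obtain ⟨h, hh1, hhodd, hhinv⟩ := Cfsg.Agent.Invol.exists_inverted_odd (⟨θ, hθH⟩ : H) hθo hO
  -- `h` is inner
  haveI : c.range.Normal := ⟨fun x hx g => by
    obtain ⟨q, rfl⟩ := hx
    exact ⟨g q, by ext r; simp [hc, MulAut.conj_apply]⟩⟩
  obtain ⟨i, hi, z, hz, hiz⟩ := Subgroup.mem_sup_of_normal_left.mp h.2
  have hinner : (h : MulAut Q) ∈ c.range := by
    obtain ⟨n, hn⟩ := hhodd
    have hsq : ∀ y ∈ H, y * y ∈ c.range := by
      intro y hy
      obtain ⟨u, hu, w, hw, rfl⟩ := Subgroup.mem_sup_of_normal_left.mp hy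
      obtain ⟨m, rfl⟩ := Subgroup.mem_zpowers_iff.mp hw
      have e : u * θ ^ m * (u * θ ^ m) = u * (θ ^ m * u * (θ ^ m)⁻¹) * (θ * θ) ^ m := by
        rw [(Commute.refl θ).mul_zpow]; group
      rw [e, hθ2, one_zpow, mul_one]
      exact mul_mem hu (Subgroup.Normal.conj_mem inferInstance u hu _)
    have h1 : (h : MulAut Q) * h ∈ c.range := hsq _ h.2
    have h2 : (h : MulAut Q) ^ orderOf h = 1 := by
      rw [← SubmonoidClass.coe_pow, pow_orderOf_eq_one]; rfl
    have h3 : (h : MulAut Q) = ((h : MulAut Q) * h) ^ (n + 1) := by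
      rw [← pow_two, ← pow_mul, show 2 * (n + 1) = orderOf h + 1 by omega, pow_succ, h2, one_mul]
    rw [h3]
    exact pow_mem h1 _
  obtain ⟨q, hq⟩ := hinner
  obtain ⟨l, rfl⟩ := QuotientGroup.mk_surjective q
  have hθl : (((f l) : K) : Q) = (l : Q)⁻¹ := by
    have h1 : θ * (h : MulAut Q) * θ⁻¹ = (h : MulAut Q)⁻¹ := congrArg Subtype.val hhinv
    rw [← hq, ← map_inv] at h1
    have h2 : θ * c (l : Q) * θ⁻¹ = c (θ (l : Q)) := by
      ext r; simp [hc, MulAut.conj_apply]
    rw [h2] at h1
    have h3 : θ (l : Q) = (l : Q)⁻¹ := by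
      have h4 : c (θ (l : Q) * (l : Q)) = 1 := by rw [map_mul, h1, ← map_mul, inv_mul_cancel, map_one]
      refine eq_inv_of_mul_eq_one_left ?_
      generalize θ (l : Q) * (l : Q) = y at h4 ⊢
      induction y using QuotientGroup.induction_on with
      | H k =>
        rw [QuotientGroup.eq_one_iff]
        refine mem_center_of_image_central hK (QuotientGroup.mk' Z) ?_ fun m => ?_
        · by_contra hcon
          push Not at hcon
          exact Components.quasisimple_center_ne_top hK
            (eq_top_iff.mpr fun x _ => (QuotientGroup.eq_one_iff x).mp (hcon x))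
        · have := DFunLike.congr_fun h4 (m : Q)
          simp only [hc, MulAut.conj_apply, MulAut.one_apply] at this
          exact mul_inv_eq_iff_eq_mul.mp this
    exact h3
  set g := f l * l⁻¹ with hg
  have hgq : (g : Q) = ((l : Q)⁻¹) ^ 2 := by
    rw [hg, QuotientGroup.mk_mul, QuotientGroup.mk_inv, hθl, pow_two]
  have hlo : Odd (orderOf (l : Q)) := by
    have hord : orderOf (h : MulAut Q) ∣ orderOf (l : Q) := hq ▸ orderOf_map_dvd c _
    have hord' : orderOf (l : Q) ∣ orderOf (h : MulAut Q) := by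
      refine orderOf_dvd_of_pow_eq_one ?_
      have h0 : c ((l : Q) ^ orderOf (h : MulAut Q)) = 1 := by
        rw [map_pow, hq, pow_orderOf_eq_one]
      generalize (l : Q) ^ orderOf (h : MulAut Q) = y at h0 ⊢
      induction y using QuotientGroup.induction_on with
      | H k =>
        rw [QuotientGroup.eq_one_iff]
        refine mem_center_of_image_central hK (QuotientGroup.mk' Z) ?_ fun m => ?_
        · by_contra hcon
          push Not at hcon
          exact Components.quasisimple_center_ne_top hK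
            (eq_top_iff.mpr fun x _ => (QuotientGroup.eq_one_iff x).mp (hcon x))
        · have := DFunLike.congr_fun h0 (m : Q)
          simp only [hc, MulAut.conj_apply, MulAut.one_apply] at this
          exact mul_inv_eq_iff_eq_mul.mp this
    rw [Nat.dvd_antisymm hord' hord, Subgroup.orderOf_coe]
    exact hhodd
  have hgne : (g : Q) ≠ 1 := by
    rw [hgq]
    intro h1
    have h2 : orderOf ((l : Q)⁻¹) ∣ 2 := orderOf_dvd_of_pow_eq_one h1
    rw [orderOf_inv] at h2
    rcases (Nat.dvd_prime Nat.prime_two).mp h2 with h3 | h3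
    · apply hh1
      refine Subtype.ext ?_
      rw [← hq, orderOf_eq_one_iff.mp h3, map_one]; rfl
    · rw [h3] at hlo; exact absurd hlo (by decide)
  -- `b` inverts `σ g`
  have hbg : β b * σ g = σ g⁻¹ * β b := by
    rw [alpha_tw]
    congr 1
    rw [hg, mul_inv_rev, inv_inv, map_mul (σ) l (f l)⁻¹]
    have e1 : tw σ β b (f l) = σ l := by rw [tw_apply, ← hf, ← tw_mul, hb2, tw_one]
    have e2 : tw σ β b l⁻¹ = σ (f l)⁻¹ := by
      calc tw σ β b l⁻¹ = tw σ β b l⁻¹ * (σ (f l) * σ (f l)⁻¹) := by
            rw [← map_mul σ, mul_inv_cancel, map_one, mul_one]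
        _ = σ (f l)⁻¹ := by
            rw [← hf, ← mul_assoc, ← map_mul (tw σ β b), inv_mul_cancel, map_one, one_mul]
    rw [map_mul, e1, e2]
  obtain ⟨i, m, hm, hgm⟩ :=
    Nat.exists_eq_pow_mul_and_not_dvd (orderOf_pos g).ne' 2 (by norm_num)
  refine ⟨g ^ 2 ^ i, ?_, ?_, ?_⟩
  · intro hc2
    rw [← QuotientGroup.eq_one_iff, QuotientGroup.mk_pow] at hc2
    have h2 : orderOf (g : Q) ∣ 2 ^ i := orderOf_dvd_of_pow_eq_one hc2
    have h3 : Odd (orderOf (g : Q)) := by
      rw [hgq]
      refine hlo.of_dvd_nat ?_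
      rw [← orderOf_inv (l : Q)]
      exact orderOf_pow_dvd 2
    have h4 := Nat.eq_one_of_dvd_coprimes ((Nat.coprime_two_right.mpr h3).pow_right i) dvd_rfl h2
    exact hgne (orderOf_eq_one_iff.mp h4)
  · rw [orderOf_pow, hgm, Nat.gcd_eq_right (Dvd.intro _ rfl),
      Nat.mul_div_cancel_left _ (by positivity)]
    exact Nat.not_even_iff_odd.mp fun he => hm (even_iff_two_dvd.mp he)
  · rw [← inv_pow, map_pow, map_pow]
    exact (SemiconjBy.pow_right hbg _).eq

end Cfsg.Agent.LocEven.Chermak
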