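import Cfsg.Agent.LocEven.Chermak.Orbit
import Cfsg.Agent.Char.Burnside

/-!
The prime 2: consequences of the orbit product fixing `[V,a]`, and transvections.
-/

set_option autoImplicit false

namespace Cfsg.Agent.LocEven.Chermak

open Cfsg

variable {V : Type*} [AddCommGroup V] {K A : Type*} [Group K] [CommGroup A]
variable {σ : K →* AddMonoid.End V} {α : A →* AddMonoid.End V}

theorem image_pow_order {M : Type*} [Monoid M] (f : K →* M) (x : K) : f x ^ orderOf x = 1 := by
  rw [← map_pow, pow_orderOf_eq_one, map_one]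

/-- If the orbit product fixes `[V,a]` then `a` fixes its commutators. -/
theorem a_fixes_twoProd {a : A} (ha2 : a * a = 1) (ha : Moves σ α a)
    (hfix : ∀ k v, σ k (tw σ α a k (α a v - v)) = α a v - v) (k : K) (v : V) :
    α a (σ k (tw σ α a k v) - v) = σ k (tw σ α a k v) - v := by
  have hback : tw σ α a k = α a * σ k * α a := by
    rw [tw_apply, inv_eq_of_mul_eq_one_right ha2]
  have hcomm : α a (σ k (tw σ α a k v)) = σ k (tw σ α a k (α a v)) := by
    show (α a * σ k * tw σ α a k) v = (σ k * tw σ α a k * α a) v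
    have haa : α a * α a = 1 := by rw [← map_mul, ha2, map_one]
    have e : α a * σ k = tw σ α a k * α a := alpha_tw a k
    have e' : α a * tw σ α a k = σ k * α a := by
      rw [hback, ← mul_assoc, ← mul_assoc, haa, one_mul]
    calc (α a * σ k * tw σ α a k) v = (tw σ α a k * (α a * tw σ α a k)) v := by
          rw [e, mul_assoc]
      _ = (σ k * tw σ α a k * α a) v := by rw [e', ← mul_assoc, ← (ha k k).eq]
  have h := hfix k v
  rw [map_sub (tw σ α a k), map_sub (σ k)] at h
  rw [map_sub, hcomm]
  calc σ k (tw σ α a k (α a v)) - α a v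
      = (σ k (tw σ α a k (α a v)) - σ k (tw σ α a k v)) + σ k (tw σ α a k v) - α a v := by abel
    _ = _ := by rw [h]; abel

/-- On the commutators of the orbit product the two copies agree. -/
theorem tw_eq_on {a : A} (ha2 : a * a = 1) (ha : Moves σ α a)
    (hfix : ∀ k v, σ k (tw σ α a k (α a v - v)) = α a v - v) (x : K) (v : V) :
    tw σ α a x (σ x (tw σ α a x v) - v) = σ x (σ x (tw σ α a x v) - v) := by
  have h1 : σ x (σ x (tw σ α a x v) - v) = σ x (tw σ α a x (σ x v)) - σ x v := by
    rw [map_sub]
    congr 1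
    rw [← endo_mul_apply (tw σ α a x) (σ x), ← (ha x x).eq, endo_mul_apply]
  have e : ∀ z, tw σ α a x z = α a (σ x (α a z)) := fun z => by
    rw [tw_apply, inv_eq_of_mul_eq_one_right ha2]; rfl
  rw [e (σ x (tw σ α a x v) - v), a_fixes_twoProd ha2 ha hfix, h1,
    a_fixes_twoProd ha2 ha hfix]

/-- The fixed points of the two copies coincide with those of every noncentral odd element. -/
theorem fix_facts (hV : ∀ v : V, 2 • v = 0) (hK : IsQuasisimple K) {a : A} (ha2 : a * a = 1)
    (ha : Moves σ α a) (hfix : ∀ k v, σ k (tw σ α a k (α a v - v)) = α a v - v) {x : K}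
    (hx : x ∉ Subgroup.center K) (hxo : Odd (orderOf x)) :
    (∀ v, σ x v = v → v ∈ fix (Set.range σ)) ∧
      fix (Set.range σ) = fix (Set.range (tw σ α a)) := by
  have hback : ∀ k, tw σ α a k = α a * σ k * α a := fun k => by
    rw [tw_apply, inv_eq_of_mul_eq_one_right ha2]
  have haa : ∀ v, α a (α a v) = v := fun v => by
    rw [← endo_mul_apply, ← map_mul, ha2, map_one]; rfl
  -- `C(X) ≤ C(Y)`
  have h1 : ∀ v, σ x v = v → tw σ α a x v = v := by
    intro v hv
    have hXY : σ x (tw σ α a x v) = tw σ α a x v := by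
      rw [← endo_mul_apply, (ha x x).eq, endo_mul_apply, hv]
    have hu := tw_eq_on ha2 ha hfix x v
    rw [hXY] at hu
    rw [map_sub (σ x), hXY, hv] at hu
    exact eq_of_coprime_pow hV (image_pow_order (tw σ α a) x) (Nat.coprime_two_right.mpr hxo) hu
  have h2 : ∀ v, tw σ α a x v = v → σ x v = v := by
    intro v hv
    have h3 : σ x (α a v) = α a v := by
      rw [hback, endo_mul_apply, endo_mul_apply] at hv
      have := congrArg (α a) hv
      rwa [haa] at this
    have h4 := h1 _ h3
    rw [hback, endo_mul_apply, endo_mul_apply, haa] at h4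
    have := congrArg (α a) h4
    rwa [haa, haa] at this
  let U : AddSubgroup V := fix {σ x}
  have hmem : ∀ v, v ∈ U ↔ σ x v = v := fun v => by simp [U, mem_fix]
  have hU1 : ∀ k, ∀ v ∈ U, tw σ α a k v ∈ U := fun k v hv => by
    rw [hmem] at hv ⊢
    rw [← endo_mul_apply, (ha x k).eq, endo_mul_apply, hv]
  have hU0 : ∀ k, ∀ v ∈ U, σ k v ∈ U := fun k v hv => by
    rw [hmem] at hv ⊢
    refine h2 _ ?_
    rw [← endo_mul_apply, ← (ha k x).eq, endo_mul_apply, h1 v hv]
  have hf1 := fix_all_of_noncentral hK (tw σ α a) U hU1 hx (fun u hu => h1 u ((hmem u).mp hu))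
  have hf0 := fix_all_of_noncentral hK σ U hU0 hx (fun u hu => (hmem u).mp hu)
  refine ⟨fun v hv => mem_fix_range.mpr fun k => hf0 k v ((hmem v).mpr hv), le_antisymm ?_ ?_⟩
  · intro v hv
    rw [mem_fix_range] at hv ⊢
    exact fun k => hf1 k v ((hmem v).mpr (hv x))
  · intro v hv
    rw [mem_fix_range] at hv ⊢
    exact fun k => hf0 k v ((hmem v).mpr (h2 v (hv x)))

/-- A transvection does not move a quasisimple group. -/
theorem not_transvection_moves [Finite K] [Finite V] (hV : ∀ v : V, 2 • v = 0)
    (hK : IsQuasisimple K) (hnt : ∃ k, σ k ≠ 1) {a : A} (ha2 : a * a = 1) (ha : Moves σ α a)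
    (w : V) (hw : ∀ v, α a v - v = 0 ∨ α a v - v = w) : False := by
  have hback : ∀ k, tw σ α a k = α a * σ k * α a := fun k => by
    rw [tw_apply, inv_eq_of_mul_eq_one_right ha2]
  have haa : α a * α a = 1 := by rw [← map_mul, ha2, map_one]
  -- twelfth powers are central
  have h12 : ∀ k : K, k ^ 12 ∈ Subgroup.center K := by
    intro k
    set g : AddMonoid.End V := σ k * tw σ α a k⁻¹ with hg
    have hU : ∀ v, ∃ i j : ℕ, g v - v = i • w + j • σ k w := by
      intro v
      set b := σ k * α a * σ k⁻¹ with hb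
      have hgb : g = b * α a := by
        rw [hg, hback, hb]; simp only [mul_assoc]
      have hbv : ∀ u, b u - u = 0 ∨ b u - u = σ k w := by
        intro u
        have e : b u - u = σ k (α a (σ k⁻¹ u) - σ k⁻¹ u) := by
          rw [map_sub, ← endo_mul_apply (σ k) (σ k⁻¹), ← map_mul, mul_inv_cancel, map_one]; rfl
        rw [e]
        rcases hw (σ k⁻¹ u) with h | h
        · left; rw [h, map_zero]
        · right; rw [h]
      have e : g v - v = (α a v - v) + (b (α a v) - α a v) := by
        rw [hgb, endo_mul_apply]; abel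
      rw [e]
      rcases hw v with h | h <;> rcases hbv (α a v) with h' | h' <;> rw [h, h']
      · exact ⟨0, 0, by simp⟩
      · exact ⟨0, 1, by simp⟩
      · exact ⟨1, 0, by simp⟩
      · exact ⟨1, 1, by simp⟩
    set U : AddSubgroup V := AddSubgroup.zmultiples w ⊔ AddSubgroup.zmultiples (σ k w) with hUdef
    have hUmem : ∀ u ∈ U, u = 0 ∨ u = w ∨ u = σ k w ∨ u = w + σ k w := by
      intro u hu
      obtain ⟨x, hx, y, hy, rfl⟩ := AddSubgroup.mem_sup.mp hu
      obtain ⟨i, rfl⟩ := AddSubgroup.mem_zmultiples_iff.mp hx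
      obtain ⟨j, rfl⟩ := AddSubgroup.mem_zmultiples_iff.mp hy
      have hpar : ∀ (n : ℤ) (z : V), n • z = 0 ∨ n • z = z := fun n z => by
        have h2z : (2 : ℤ) • z = 0 := by
          rw [show (2 : ℤ) = ((2 : ℕ) : ℤ) from rfl, natCast_zsmul, hV]
        rcases Int.emod_two_eq_zero_or_one n with h | h
        · left; rw [← Int.emod_add_mul_ediv n 2, h, zero_add, mul_comm, mul_zsmul, h2z, zsmul_zero]
        · right; rw [← Int.emod_add_mul_ediv n 2, h, add_zsmul, one_zsmul, mul_comm, mul_zsmul,
            h2z, zsmul_zero, add_zero]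
      rcases hpar i w with h | h <;> rcases hpar j (σ k w) with h' | h' <;> rw [h, h'] <;> simp
    have hgU : ∀ v, g v - v ∈ U := fun v => by
      obtain ⟨i, j, h⟩ := hU v
      rw [h]
      exact add_mem (AddSubgroup.mem_sup_left (AddSubgroup.nsmul_mem _ (AddSubgroup.mem_zmultiples w) i))
        (AddSubgroup.mem_sup_right (AddSubgroup.nsmul_mem _ (AddSubgroup.mem_zmultiples _) j))
    have hginj : Function.Injective g := by
      have h1 : σ k⁻¹ * (tw σ α a k * g) = 1 := by
        rw [hg, ← mul_assoc (tw σ α a k), ← (ha k k).eq, mul_assoc, ← map_mul (tw σ α a),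
          mul_inv_cancel, map_one, mul_one, ← map_mul σ, inv_mul_cancel, map_one]
      intro u v huv
      have := congrArg (fun z => (σ k⁻¹ * tw σ α a k) z) huv
      simpa [← endo_mul_apply, mul_assoc, h1] using this
    -- `g` permutes at most four points of `U`
    have hgmem : ∀ u ∈ U, g u ∈ U := fun u hu => by
      have := add_mem (hgU u) hu
      simpa using this
    have h6 : ∀ u ∈ U, (g ^ 6) u = u := by
      intro u hu
      let f : U → U := fun z => ⟨g z, hgmem z z.2⟩
      have hfinj : Function.Injective f := fun z z' h =>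
        Subtype.ext (hginj (congrArg Subtype.val h))
      haveI := Fintype.ofFinite U
      classical
      let e : Equiv.Perm U := Equiv.ofBijective f (Finite.injective_iff_bijective.mp hfinj)
      let ne : Type _ := {z : U // z ≠ 0}
      have hne : ∀ z : U, e z ≠ 0 ↔ z ≠ 0 := fun z => by
        have h0 : e 0 = 0 := Subtype.ext (map_zero g)
        exact ⟨fun h hz => h (hz ▸ h0), fun h hz => h (e.injective (hz.trans h0.symm))⟩
      let e' : Equiv.Perm ne := e.subtypePerm hne
      have hcard : Fintype.card ne ≤ 3 := by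
        have hinj : Function.Injective (fun z : ne => (if (z.1 : V) = w then (0 : Fin 3)
            else if (z.1 : V) = σ k w then 1 else 2)) := by
          intro z z' h
          have hz := (hUmem z.1 z.1.2).resolve_left fun h => z.2 (Subtype.ext h)
          have hz' := (hUmem z'.1 z'.1.2).resolve_left fun h => z'.2 (Subtype.ext h)
          refine Subtype.ext (Subtype.ext ?_)
          dsimp only at h
          rcases hz with h1 | h1 | h1 <;> rcases hz' with h2 | h2 | h2 <;>
            simp only [h1, h2] at h ⊢ <;> split_ifs at h <;> simp_all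
        simpa using Fintype.card_le_of_injective _ hinj
      have he' : e' ^ 6 = 1 := by
        have h1 : Nat.card (Equiv.Perm ne) ∣ 6 := by
          rw [Nat.card_perm, Nat.card_eq_fintype_card]
          have h3 := Nat.factorial_dvd_factorial hcard
          simpa [Nat.factorial] using h3
        exact orderOf_dvd_iff_pow_eq_one.mp ((orderOf_dvd_natCard e').trans h1)
      have he : ∀ n : ℕ, ∀ z : U, (((e ^ n) z : U) : V) = (g ^ n) (z : V) := by
        intro n
        induction n with
        | zero => intro z; rfl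
        | succ n ih => intro z; rw [pow_succ, Equiv.Perm.mul_apply, ih, pow_succ]; rfl
      by_cases h0 : u = 0
      · rw [h0, map_zero]
      · have h3 := DFunLike.congr_fun he' (⟨⟨u, hu⟩, fun h => h0 (congrArg Subtype.val h)⟩ : ne)
        rw [Equiv.Perm.subtypePerm_pow] at h3
        have h4 := congrArg (fun z : ne => ((z.1 : U) : V)) h3
        exact (he 6 ⟨u, hu⟩).symm.trans h4
    have hU6 : ∀ v, (g ^ 6) v - v ∈ U := by
      have : ∀ n v, (g ^ n) v - v ∈ U := by
        intro n
        induction n with
        | zero => intro v; simp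
        | succ n ih =>
          intro v
          rw [pow_succ, endo_mul_apply]
          have := add_mem (ih (g v)) (hgU v)
          rwa [sub_add_sub_cancel] at this
      exact this 6
    have hg12 : g ^ 12 = 1 := by
      refine AddMonoidHom.ext fun v => ?_
      show (g ^ 12) v = v
      rw [show (12 : ℕ) = 6 + 6 from rfl, pow_add, endo_mul_apply]
      have h1 := h6 _ (hU6 v)
      rw [map_sub] at h1
      calc (g ^ 6) ((g ^ 6) v) = ((g ^ 6) ((g ^ 6) v) - (g ^ 6) v) + (g ^ 6) v := by abel
        _ = ((g ^ 6) v - v) + (g ^ 6) v := by rw [h1]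
        _ = v + 2 • ((g ^ 6) v - v) := by rw [two_nsmul]; abel
        _ = v := by rw [hV, add_zero]
    refine mem_center_of_image_central hK σ hnt fun l => ?_
    have hk12 : σ (k ^ 12) = tw σ α a (k ^ 12) := by
      have h1 : g ^ 12 = σ (k ^ 12) * tw σ α a (k⁻¹ ^ 12) := by
        rw [hg, (ha k k⁻¹).mul_pow, map_pow, map_pow]
      rw [hg12] at h1
      calc σ (k ^ 12) = σ (k ^ 12) * (tw σ α a (k⁻¹ ^ 12) * tw σ α a (k ^ 12)) := by
            rw [← map_mul (tw σ α a), inv_pow, inv_mul_cancel, map_one, mul_one]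
        _ = tw σ α a (k ^ 12) := by rw [← mul_assoc, ← h1, one_mul]
    conv_lhs => rw [hk12]
    conv_rhs => rw [hk12]
    exact (ha l (k ^ 12)).eq.symm
  -- so the simple quotient is a `{2,3}`-group
  haveI hs := hK.2
  haveI := hK.1
  have hsolv : Group.IsSolvable (K ⧸ Subgroup.center K) := by
    refine Cfsg.Agent.Char.solvable_of_card_eq_pow_mul_pow 2 3 Nat.prime_two Nat.prime_three _ rfl ?_
    intro r hr hdvd
    haveI := Fact.mk hr
    obtain ⟨q, hq⟩ := exists_prime_orderOf_dvd_card' r hdvd
    induction q using QuotientGroup.induction_on with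
    | H k =>
      have h1 : ((k : K ⧸ Subgroup.center K)) ^ 12 = 1 := by
        rw [← QuotientGroup.mk_pow, QuotientGroup.eq_one_iff]; exact h12 k
      have h2 := orderOf_dvd_of_pow_eq_one h1
      rw [hq, show (12 : ℕ) = 2 * 2 * 3 from rfl] at h2
      rcases hr.dvd_mul.mp h2 with h | h
      · left
        rcases hr.dvd_mul.mp h with h | h <;> exact (Nat.prime_dvd_prime_iff_eq hr Nat.prime_two).mp h
      · right; exact (Nat.prime_dvd_prime_iff_eq hr Nat.prime_three).mp h
  refine Components.quasisimple_center_ne_top hK (eq_top_iff.mpr fun k _ => ?_)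
  exact (QuotientGroup.eq_one_iff k).mp (hom_trivial_of_comm hK
    (QuotientGroup.mk' (Subgroup.center K))
    (fun a b => IsSimpleGroup.comm_iff_isSolvable.mpr hsolv _ _) k)

end Cfsg.Agent.LocEven.Chermak
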